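import Cfsg.Agent.H771.M5.CGFacts

/-!
# Abelian subgroups of `CG` have order at most `5 ^ 4` (helper771)
-/

set_option autoImplicit false
set_option linter.unusedSectionVars false
set_option linter.style.haveILetI false

namespace Cfsg.Agent.H771.M5

open CG

variable {K : Type*} [Field K] [F25 K]

theorem exists_bar_ne (K : Type*) [Field K] [F25 K] : ∃ t : K, bar t ≠ t := by
  obtain ⟨a, ha⟩ := exists_gen K
  refine ⟨a, fun h => ?_⟩
  have h1 : (a : K) ^ 4 = 1 := by
    apply mul_right_cancel₀ a.ne_zero
    rw [one_mul, ← pow_succ]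
    exact h
  exact gen_pow_ne ha (by norm_num) h1

theorem addSub_card {B : AddSubgroup K} (h : B ≠ ⊤) : Nat.card B ≤ 5 := by
  haveI := F25.finite K
  have h1 : Nat.card B ∣ 5 ^ 2 := by
    have h := AddSubgroup.card_addSubgroup_dvd_card B
    rw [F25.card (K := K)] at h
    exact h
  obtain ⟨k, hk, hk2⟩ := (Nat.dvd_prime_pow (by norm_num)).1 h1
  interval_cases k
  · rw [hk2]; norm_num
  · rw [hk2]; norm_num
  · exfalso
    apply h
    apply AddSubgroup.eq_top_of_card_eq
    rw [hk2, F25.card (K := K)]
    norm_num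

/-- the condition for `(0, t, _, 0)` to commute with `(a, _, _, b)` -/
def WW (a b : K) : AddSubgroup K where
  carrier := {t | b * t + a * bar t = 0}
  zero_mem' := by simp
  add_mem' := fun {x y} hx hy => by
    have hx' : b * x + a * bar x = 0 := hx
    have hy' : b * y + a * bar y = 0 := hy
    show b * (x + y) + a * bar (x + y) = 0
    rw [bar_add]
    linear_combination hx' + hy'
  neg_mem' := fun {x} hx => by
    have hx' : b * x + a * bar x = 0 := hx
    show b * (-x) + a * bar (-x) = 0
    rw [bar_neg]
    linear_combination -hx'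

theorem WW_ne {a b : K} (h : a ≠ 0 ∨ b ≠ 0) : WW a b ≠ ⊤ := by
  intro he
  have h1 : ∀ t : K, b * t + a * bar t = 0 := fun t => by
    have : t ∈ WW a b := by rw [he]; exact AddSubgroup.mem_top _
    exact this
  have e1 := h1 1
  rw [bar_one, mul_one, mul_one] at e1
  obtain ⟨t, ht⟩ := exists_bar_ne K
  have e2 := h1 t
  have e3 : a * (bar t - t) = 0 := by linear_combination e2 - t * e1
  have ha : a = 0 := (mul_eq_zero.1 e3).resolve_right (sub_ne_zero.2 ht)
  rw [ha, add_zero] at e1
  rcases h with h | h
  · exact h ha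
  · exact h e1

theorem comm_ga {x y : CG K} (h : x * y = y * x) : x.be * bar y.al = y.be * bar x.al := by
  have h1 := congrArg CG.ga h
  simp only [mul_ga] at h1
  linear_combination h1

theorem comm_de {x y : CG K} (h : x * y = y * x) (hal : y.al = 0) (hbe : y.be = 0) : y.ga ∈ WW x.al x.be := by
  have h1 := congrArg CG.de h
  simp [hal, hbe] at h1
  show x.be * y.ga + x.al * bar y.ga = 0
  linear_combination h1

/-- the map to the top quotient -/
def top2 (A : Subgroup (CG K)) : A →* Multiplicative (K × K) where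
  toFun x := Multiplicative.ofAdd ((x : CG K).al, (x : CG K).be)
  map_one' := rfl
  map_mul' _ _ := rfl

theorem abelian_card_le (A : Subgroup (CG K)) (hA : ∀ x ∈ A, ∀ y ∈ A, x * y = y * x) : Nat.card A ≤ 5 ^ 4 := by
  haveI := F25.finite K
  haveI := CG.finite K
  have hker : ∀ x : A, x ∈ (top2 A).ker ↔ (x : CG K).al = 0 ∧ (x : CG K).be = 0 := by
    intro x
    rw [MonoidHom.mem_ker]
    constructor
    · intro h
      have h1 := congrArg Multiplicative.toAdd h
      exact ⟨congrArg Prod.fst h1, congrArg Prod.snd h1⟩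
    · rintro ⟨h1, h2⟩
      show Multiplicative.ofAdd ((x : CG K).al, (x : CG K).be) = 1
      rw [h1, h2]
      rfl
  have hcard : Nat.card A = Nat.card (top2 A).range * Nat.card (top2 A).ker := by
    rw [Subgroup.card_eq_card_quotient_mul_card_subgroup (top2 A).ker,
      Nat.card_congr (QuotientGroup.quotientKerEquivRange (top2 A)).toEquiv]
  -- the kernel injects into `B × K`
  have hkerle : ∀ B : AddSubgroup K, (∀ x : A, x ∈ (top2 A).ker → (x : CG K).ga ∈ B) →
      Nat.card (top2 A).ker ≤ Nat.card B * 25 := by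
    intro B hB
    have h1 : Nat.card (B × K) = Nat.card B * 25 := by rw [Nat.card_prod, F25.card (K := K)]
    rw [← h1]
    refine Nat.card_le_card_of_injective (fun x : (top2 A).ker =>
      ((⟨((x : A) : CG K).ga, hB x x.2⟩ : B), ((x : A) : CG K).de)) ?_
    intro x y hxy
    have e1 := congrArg (fun t => (t.1 : K)) hxy
    have e2 := congrArg Prod.snd hxy
    have hx := (hker x).1 x.2
    have hy := (hker y).1 y.2
    apply Subtype.ext
    apply Subtype.ext
    ext
    · rw [hx.1, hy.1]
    · exact e1
    · exact e2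
    · rw [hx.2, hy.2]
  have hrp : Nat.card (top2 A).range ∣ 5 ^ 8 := by
    have h1 := Subgroup.card_subgroup_dvd_card A
    rw [CG.card, hcard] at h1
    exact (dvd_mul_right _ _).trans h1
  by_cases h0 : ∀ x ∈ A, x.al = 0 ∧ x.be = 0
  · -- everything in the kernel
    have h1 : Nat.card (top2 A).range = 1 := by
      rw [Subgroup.card_eq_one, eq_bot_iff]
      rintro _ ⟨x, rfl⟩
      exact (hker x).2 (h0 x x.2)
    rw [hcard, h1, one_mul]
    refine (hkerle ⊤ (fun x _ => AddSubgroup.mem_top _)).trans ?_
    rw [AddSubgroup.card_top, F25.card (K := K)]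
    norm_num
  push Not at h0
  obtain ⟨x0, hx0, hx0'⟩ := h0
  have hne : x0.al ≠ 0 ∨ x0.be ≠ 0 := by
    by_cases h : x0.al = 0
    · exact Or.inr (hx0' h)
    · exact Or.inl h
  have hk : Nat.card (top2 A).ker ≤ 5 * 25 := by
    refine (hkerle (WW x0.al x0.be) (fun y hy => ?_)).trans (Nat.mul_le_mul_right _ (addSub_card (WW_ne hne)))
    exact comm_de (hA x0 hx0 y y.2) ((hker y).1 hy).1 ((hker y).1 hy).2
  obtain ⟨r, -, hr⟩ := (Nat.dvd_prime_pow (by norm_num)).1 hrp
  -- bound for the range
  have hrle : Nat.card (top2 A).range ≤ 25 ∧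
      (25 ≤ Nat.card (top2 A).range → ∀ y : A, y ∈ (top2 A).ker → (y : CG K).ga = 0) := by
    by_cases hal : ∀ x ∈ A, x.al = 0
    · constructor
      · rw [← F25.card (K := K)]
        refine Nat.card_le_card_of_injective (fun x : (top2 A).range => (x : Multiplicative (K × K)).toAdd.2) ?_
        rintro ⟨_, x, rfl⟩ ⟨_, y, rfl⟩ hxy
        apply Subtype.ext
        show Multiplicative.ofAdd ((x : CG K).al, (x : CG K).be) = Multiplicative.ofAdd ((y : CG K).al, (y : CG K).be)
        have h1 : (x : CG K).be = (y : CG K).be := hxy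
        rw [hal x x.2, hal y y.2, h1]
      · intro _ y hy
        have h1 := comm_de (hA x0 hx0 y y.2) ((hker y).1 hy).1 ((hker y).1 hy).2
        have h2 : x0.be * (y : CG K).ga + x0.al * bar (y : CG K).ga = 0 := h1
        rw [hal x0 hx0, zero_mul, add_zero] at h2
        exact (mul_eq_zero.1 h2).resolve_left (hne.resolve_left (fun h => h (hal x0 hx0)))
    · push Not at hal
      obtain ⟨x1, hx1, hx1'⟩ := hal
      have hb1 : bar x1.al ≠ 0 := fun h => hx1' (bar_eq_zero.1 h)
      have hbe : ∀ x ∈ A, x.be = x1.be / bar x1.al * bar x.al := by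
        intro x hx
        have h1 := comm_ga (hA x hx x1 hx1)
        field_simp
        exact h1
      have hinj : Function.Injective (fun x : (top2 A).range => (x : Multiplicative (K × K)).toAdd.1) := by
        rintro ⟨_, x, rfl⟩ ⟨_, y, rfl⟩ hxy
        apply Subtype.ext
        show Multiplicative.ofAdd ((x : CG K).al, (x : CG K).be) = Multiplicative.ofAdd ((y : CG K).al, (y : CG K).be)
        have h1 : (x : CG K).al = (y : CG K).al := hxy
        rw [hbe x x.2, hbe y y.2, h1]
      have hle : Nat.card (top2 A).range ≤ 25 := by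
        rw [← F25.card (K := K)]
        exact Nat.card_le_card_of_injective _ hinj
      refine ⟨hle, fun h25 y hy => ?_⟩
      have hsurj : Function.Surjective (fun x : (top2 A).range => (x : Multiplicative (K × K)).toAdd.1) := by
        haveI : Fintype K := Fintype.ofFinite K
        haveI : Fintype (top2 A).range := Fintype.ofFinite _
        apply (Fintype.bijective_iff_injective_and_card _).2 ⟨hinj, ?_⟩ |>.2
        rw [← Nat.card_eq_fintype_card, ← Nat.card_eq_fintype_card, F25.card (K := K)]
        omega
      have hall : ∀ t : K, x1.be / bar x1.al * bar t * (y : CG K).ga + t * bar (y : CG K).ga = 0 := by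
        intro t
        obtain ⟨⟨_, x, rfl⟩, hx⟩ := hsurj t
        have hx' : (x : CG K).al = t := hx
        have h1 : (x : CG K).be * (y : CG K).ga + (x : CG K).al * bar (y : CG K).ga = 0 :=
          comm_de (hA x x.2 y y.2) ((hker y).1 hy).1 ((hker y).1 hy).2
        rw [hbe x x.2, hx'] at h1
        exact h1
      have e1 := hall 1
      rw [bar_one] at e1
      obtain ⟨t, ht⟩ := exists_bar_ne K
      have e2 := hall t
      have e3 : bar (y : CG K).ga * (t - bar t) = 0 := by linear_combination e2 - bar t * e1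
      exact bar_eq_zero.1 ((mul_eq_zero.1 e3).resolve_right (sub_ne_zero.2 (Ne.symm ht)))
  rw [hcard]
  by_cases h25 : 25 ≤ Nat.card (top2 A).range
  · have h1 := hkerle ⊥ (fun y hy => by
      rw [hrle.2 h25 y hy]
      exact AddSubgroup.zero_mem _)
    rw [AddSubgroup.card_bot, one_mul] at h1
    calc Nat.card (top2 A).range * Nat.card (top2 A).ker ≤ 25 * 25 := Nat.mul_le_mul hrle.1 h1
      _ = 5 ^ 4 := by norm_num
  · have h1 : Nat.card (top2 A).range ≤ 5 := by
      rw [hr] at h25 ⊢
      have hr2 : r < 2 := by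
        by_contra hcon
        push Not at hcon
        exact h25 (le_trans (by norm_num) (Nat.pow_le_pow_right (by norm_num : 0 < 5) hcon))
      interval_cases r <;> norm_num
    calc Nat.card (top2 A).range * Nat.card (top2 A).ker ≤ 5 * (5 * 25) := Nat.mul_le_mul h1 hk
      _ = 5 ^ 4 := by norm_num

end Cfsg.Agent.H771.M5
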