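import Cfsg.Agent.H771.M5.SysA
import Cfsg.Agent.H777.PGrp

/-!
# Facts about `CG`: closed subgroups, abelian subgroups (helper771)
-/

set_option autoImplicit false
set_option linter.unusedSectionVars false
set_option linter.style.haveILetI false

namespace Cfsg.Agent.H771.M5

open CG

variable {K : Type*} [Field K] [F25 K]

/-- a central element lies in `Z` -/
theorem center_eq {x : CG K} (h : ∀ y : CG K, x * y = y * x) : ∃ d : K, x = vv (0, d) := by
  have h1 : x ∈ VC K := mem_VC_of_comm fun w => h (vv w)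
  obtain ⟨⟨w1, w2⟩, rfl⟩ := mem_VC_iff.1 h1
  refine ⟨w2, ?_⟩
  have h2 : (⟨0, 1, 0, 0⟩ : CG K) * vv (w1, w2) * (⟨0, 1, 0, 0⟩ : CG K)⁻¹ = vv (w1, w2) := by
    rw [← h, mul_inv_cancel_right]
  rw [conj_vv _ rfl] at h2
  have h3 := congrArg Prod.snd (vv_injective h2)
  simp at h3
  rw [h3]

theorem vv_central (d : K) (y : CG K) : vv (0, d) * y = y * vv (0, d) := by
  ext <;> simp [add_comm]

/-- `SL₂` is transitive -/
theorem mv_trans {w w' : K × K} (hw : w ≠ 0) (hw' : w' ≠ 0) :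
    ∃ g : Matrix.SpecialLinearGroup (Fin 2) K, mv g w = w' := by
  have key : ∀ w : K × K, w ≠ 0 → ∃ g : Matrix.SpecialLinearGroup (Fin 2) K, mv g (1, 0) = w := by
    rintro ⟨a, b⟩ h
    by_cases ha : a = 0
    · subst ha
      have hb : b ≠ 0 := fun hb => h (by rw [hb]; rfl)
      refine ⟨mk2 0 (-b⁻¹) b 0 (by field_simp; simp), ?_⟩
      rw [mv_mk2]
      ext <;> simp
    · refine ⟨mk2 a 0 b a⁻¹ (by field_simp; simp), ?_⟩
      rw [mv_mk2]
      ext <;> simp
  obtain ⟨g, hg⟩ := key w hw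
  obtain ⟨g', hg'⟩ := key w' hw'
  refine ⟨g' * g⁻¹, ?_⟩
  rw [← hg, ← mv_mul, inv_mul_cancel_right, hg']

theorem exists_gen (K : Type*) [Field K] [F25 K] : ∃ a : Kˣ, orderOf a = 24 := by
  haveI := F25.finite K
  obtain ⟨a, ha⟩ := IsCyclic.exists_generator (α := Kˣ)
  refine ⟨a, ?_⟩
  rw [orderOf_eq_card_of_forall_mem_zpowers ha, card_units]

theorem gen_pow_ne {a : Kˣ} (ha : orderOf a = 24) {n : ℕ} (hn : ¬ 24 ∣ n) : (a : K) ^ n ≠ 1 := by
  intro h
  apply hn
  rw [← ha]
  apply orderOf_dvd_of_pow_eq_one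
  apply Units.ext
  rw [Units.val_pow_eq_pow_val, h, Units.val_one]

/-- an additive subgroup closed under the torus is everything -/
theorem addSub_eq_top {a : Kˣ} (ha : orderOf a = 24) (B : AddSubgroup K) (hB : ∀ b ∈ B, (a : K) ^ 9 * b ∈ B)
    {b : K} (hb : b ∈ B) (hb0 : b ≠ 0) : B = ⊤ := by
  haveI := F25.finite K
  haveI : Fact (Nat.Prime 5) := ⟨by norm_num⟩
  have h1 : Nat.card B ∣ 5 ^ 2 := by
    have h := AddSubgroup.card_addSubgroup_dvd_card B
    rw [F25.card (K := K)] at h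
    exact h
  obtain ⟨k, hk, hk2⟩ := (Nat.dvd_prime_pow (by norm_num)).1 h1
  interval_cases k
  · exfalso
    rw [pow_zero] at hk2
    have h3 : B = ⊥ := AddSubgroup.card_eq_one.1 hk2
    rw [h3] at hb
    exact hb0 hb
  · exfalso
    rw [pow_one] at hk2
    have h3 : (⟨_, hB b hb⟩ : B) ∈ AddSubgroup.zmultiples (⟨b, hb⟩ : B) :=
      mem_zmultiples_of_prime_card hk2 (by
        intro h
        exact hb0 (congrArg Subtype.val h))
    obtain ⟨n, hn⟩ := h3
    have h4 : n • b = (a : K) ^ 9 * b := congrArg Subtype.val hn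
    rw [zsmul_eq_mul] at h4
    have h5 : (n : K) = (a : K) ^ 9 := mul_right_cancel₀ hb0 h4
    -- Fermat
    have h6 : (n : K) ^ 5 = n := by
      haveI := charP K
      have h7 : ((n : ZMod 5)) ^ 5 = n := ZMod.pow_card _
      have h8 := congrArg (ZMod.castHom (dvd_refl 5) K) h7
      rw [map_pow, map_intCast] at h8
      exact h8
    rw [h5] at h6
    have h9 : (a : K) ^ 36 = 1 := by
      have hne : (a : K) ^ 9 ≠ 0 := pow_ne_zero _ a.ne_zero
      apply mul_right_cancel₀ hne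
      rw [one_mul, ← pow_add]
      rw [← pow_mul] at h6
      exact h6
    exact gen_pow_ne ha (by norm_num) h9
  · apply AddSubgroup.eq_top_of_card_eq
    rw [hk2, F25.card (K := K)]
    norm_num

/-- **Closed subgroups of `CG`.** -/
theorem closed_trichotomy (A : Subgroup (CG K)) (hn : A.Normal) (hth : ∀ (a : Kˣ), ∀ x ∈ A, th a x ∈ A)
    (hsl : ∀ (g : Matrix.SpecialLinearGroup (Fin 2) K) (w : K × K), vv w ∈ A → vv (mv g w) ∈ A) :
    A = ⊥ ∨ A = NC K ∨ A = ⊤ := by
  haveI := CG.finite K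
  haveI : Fact (Nat.Prime 5) := ⟨by norm_num⟩
  by_cases h1 : A = ⊥
  · exact Or.inl h1
  right
  obtain ⟨z, hz, hz1, hzc⟩ := Cfsg.Agent.H777.PGrp.inf_center_ne_bot (CG.isPGroup K) h1 hn
  obtain ⟨d, rfl⟩ := center_eq (fun y => (hzc y).symm)
  have hd : ((0, d) : K × K) ≠ 0 := by
    intro h
    apply hz1
    rw [h, vv_one]
  have hV : ∀ w : K × K, vv w ∈ A := by
    intro w
    by_cases hw : w = 0
    · rw [hw, vv_one]
      exact A.one_mem
    · obtain ⟨g, hg⟩ := mv_trans hd hw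
      rw [← hg]
      exact hsl g _ hz
  have hN : NC K ≤ A := by
    intro x hx
    have hx' : x.be = 0 := hx
    have h2 := hn.conj_mem _ (hV (1, 0)) (⟨0, 0, 0, x.ga⟩ : CG K)
    set y := (⟨0, 0, 0, x.ga⟩ : CG K) * vv (1, 0) * (⟨0, 0, 0, x.ga⟩ : CG K)⁻¹ with hy
    have e1 : y.al = 1 := conj_vv_al _ _
    have e2 : y.ga = x.ga := by
      rw [hy, conj_vv_ga]
      simp
    have e3 : y.be = 0 := conj_vv_be _ _
    have h3 : x = y * vv (x.al - 1, x.de - y.de) := by
      ext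
      · simp [e1]
      · simp [e2, e3]
      · simp [e3]
      · simp [e3, hx']
    rw [h3]
    exact A.mul_mem h2 (hV _)
  by_cases hA : A = NC K
  · exact Or.inl hA
  right
  obtain ⟨x, hx, hxN⟩ : ∃ x ∈ A, x ∉ NC K := by
    by_contra hcon
    push Not at hcon
    exact hA (le_antisymm hcon hN)
  obtain ⟨a, ha⟩ := exists_gen K
  let f : Additive (CG K) →+ K :=
    { toFun := fun y => (y.toMul).be
      map_zero' := rfl
      map_add' := fun y z => rfl }
  let B : AddSubgroup K := (Subgroup.toAddSubgroup A).map f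
  have hB : B = ⊤ := by
    refine addSub_eq_top ha B ?_ (b := x.be) ⟨Additive.ofMul x, hx, rfl⟩ hxN
    rintro _ ⟨y, hy, rfl⟩
    exact ⟨Additive.ofMul (th a y.toMul), hth a _ hy, rfl⟩
  rw [eq_top_iff]
  intro y _
  have hy : y.be ∈ B := by rw [hB]; exact AddSubgroup.mem_top _
  obtain ⟨z, hz, hzy⟩ := hy
  have hz' : (z.toMul : CG K) ∈ A := hz
  have h4 : y * (z.toMul)⁻¹ ∈ A := hN (by
    show (y * (z.toMul)⁻¹).be = 0
    have : (z.toMul).be = y.be := hzy
    simp [this])
  have h5 := A.mul_mem h4 hz'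
  rwa [inv_mul_cancel_right] at h5

theorem NC_nonabelian : ∃ x ∈ NC K, ∃ y ∈ NC K, x * y ≠ y * x := by
  refine ⟨⟨1, 0, 0, 0⟩, rfl, ⟨0, 1, 0, 0⟩, rfl, fun h => ?_⟩
  have h1 := congrArg CG.de h
  simp at h1

theorem card_NC : Nat.card (NC K) = 5 ^ 6 := by
  let e : NC K ≃ K × (K × K) :=
    { toFun := fun x => ((x : CG K).al, (x : CG K).ga, (x : CG K).de)
      invFun := fun t => ⟨⟨t.1, t.2.1, t.2.2, 0⟩, rfl⟩
      left_inv := fun x => by
        obtain ⟨x, hx⟩ := x
        apply Subtype.ext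
        have hx' : x.be = 0 := hx
        ext
        · rfl
        · rfl
        · rfl
        · exact hx'.symm
      right_inv := fun t => rfl }
  rw [Nat.card_congr e, Nat.card_prod, Nat.card_prod, F25.card (K := K)]
  norm_num

theorem card_VC : Nat.card (VC K) = 5 ^ 4 := by
  let e : VC K ≃ K × K :=
    { toFun := fun x => ((x : CG K).al, (x : CG K).de)
      invFun := fun t => ⟨vv t, vv_mem t⟩
      left_inv := fun x => by
        obtain ⟨x, hx⟩ := x
        apply Subtype.ext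
        ext
        · rfl
        · exact hx.1.symm
        · rfl
        · exact hx.2.symm
      right_inv := fun t => rfl }
  rw [Nat.card_congr e, Nat.card_prod, F25.card (K := K)]
  norm_num

end Cfsg.Agent.H771.M5
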