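import Cfsg.Agent.H771.M5.F25
import Mathlib.GroupTheory.SemidirectProduct
import Mathlib.GroupTheory.PGroup

/-!
# The group `CG` of order `5 ^ 8` and its torus (helper771)

`CG K` for a field `K` with 25 elements: the centralizer of the second centre of a Sylow 5-subgroup of the Monster.
-/

set_option autoImplicit false
set_option linter.unusedSectionVars false

namespace Cfsg.Agent.H771.M5

/-- the group of order `5 ^ 8` -/
@[ext] structure CG (K : Type*) where
  al : K
  ga : K
  de : K
  be : K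

namespace CG

variable {K : Type*} [Field K] [F25 K]

instance instMul : Mul (CG K) := ⟨fun x y =>
  ⟨x.al + y.al, x.ga + y.ga + x.be * bar y.al,
    x.de + y.de + x.be * y.ga + 3 * bar x.be * y.al ^ 2 + 3 * x.be ^ 2 * bar y.al
      + x.al * bar (y.ga + x.be * bar y.al), x.be + y.be⟩⟩

instance instOne : One (CG K) := ⟨⟨0, 0, 0, 0⟩⟩

instance instInv : Inv (CG K) := ⟨fun x =>
  ⟨-x.al, -x.ga + x.be * bar x.al,
    -x.de + x.al * bar x.ga + x.be * x.ga - 3 * bar x.be * x.al ^ 2 - 3 * x.be ^ 2 * bar x.al, -x.be⟩⟩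

@[simp] theorem mul_al (x y : CG K) : (x * y).al = x.al + y.al := rfl
@[simp] theorem mul_be (x y : CG K) : (x * y).be = x.be + y.be := rfl
@[simp] theorem mul_ga (x y : CG K) : (x * y).ga = x.ga + y.ga + x.be * bar y.al := rfl
@[simp] theorem mul_de (x y : CG K) : (x * y).de = x.de + y.de + x.be * y.ga + 3 * bar x.be * y.al ^ 2
  + 3 * x.be ^ 2 * bar y.al + x.al * bar (y.ga + x.be * bar y.al) := rfl
@[simp] theorem one_al : (1 : CG K).al = 0 := rfl
@[simp] theorem one_be : (1 : CG K).be = 0 := rfl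
@[simp] theorem one_ga : (1 : CG K).ga = 0 := rfl
@[simp] theorem one_de : (1 : CG K).de = 0 := rfl
@[simp] theorem inv_al (x : CG K) : (x⁻¹).al = - x.al := rfl
@[simp] theorem inv_be (x : CG K) : (x⁻¹).be = - x.be := rfl
@[simp] theorem inv_ga (x : CG K) : (x⁻¹).ga = - x.ga + x.be * bar x.al := rfl
@[simp] theorem inv_de (x : CG K) : (x⁻¹).de = -x.de + x.al * bar x.ga + x.be * x.ga
  - 3 * bar x.be * x.al ^ 2 - 3 * x.be ^ 2 * bar x.al := rfl

theorem mul_assoc' (x y z : CG K) : x * y * z = x * (y * z) := by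
  ext
  · simp [add_assoc]
  · simp
    ring
  · simp
    linear_combination (-bar x.be * y.al * z.al + x.be * y.be * bar z.al) * five K
  · simp [add_assoc]

instance instGroup : Group (CG K) where
  mul_assoc := mul_assoc'
  one_mul x := by ext <;> simp
  mul_one x := by ext <;> simp
  inv_mul_cancel x := by
    ext
    · simp
    · simp
    · simp
      linear_combination (-(x.al ^ 2 * bar x.be)) * five K
    · simp

/-- coordinates -/
def equiv (K : Type*) : CG K ≃ (K × K) × (K × K) where
  toFun x := ((x.al, x.ga), (x.de, x.be))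
  invFun t := ⟨t.1.1, t.1.2, t.2.1, t.2.2⟩
  left_inv _ := rfl
  right_inv _ := rfl

theorem card : Nat.card (CG K) = 5 ^ 8 := by
  rw [Nat.card_congr (equiv K), Nat.card_prod, Nat.card_prod, F25.card (K := K)]
  norm_num

theorem finite (K : Type*) [Field K] [F25 K] : Finite (CG K) := by
  have := F25.finite K
  exact Finite.of_equiv _ (equiv K).symm

theorem isPGroup (K : Type*) [Field K] [F25 K] : IsPGroup 5 (CG K) := IsPGroup.of_card card

/-! ### the torus -/

/-- the action of the torus -/
def th (a : Kˣ) (x : CG K) : CG K :=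
  ⟨a * x.al, (a : K) ^ 14 * x.ga, (a : K) ^ 23 * x.de, (a : K) ^ 9 * x.be⟩

@[simp] theorem th_al (a : Kˣ) (x : CG K) : (th a x).al = a * x.al := rfl
@[simp] theorem th_ga (a : Kˣ) (x : CG K) : (th a x).ga = (a : K) ^ 14 * x.ga := rfl
@[simp] theorem th_de (a : Kˣ) (x : CG K) : (th a x).de = (a : K) ^ 23 * x.de := rfl
@[simp] theorem th_be (a : Kˣ) (x : CG K) : (th a x).be = (a : K) ^ 9 * x.be := rfl

theorem th_mul (a : Kˣ) (x y : CG K) : th a (x * y) = th a x * th a y := by
  have h := units_pow a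
  have hb : bar (a : K) = (a : K) ^ 5 := rfl
  ext
  · simp [mul_add]
  · simp [hb]
    ring
  · simp only [th_de, mul_de, th_al, th_ga, th_be, bar_mul, bar_pow, bar_add, hb, mul_add]
    have e1 : ((a : K) ^ 5) ^ 14 = (a : K) ^ 22 := by rw [← pow_mul, pow_eq_pow_mod _ h]
    have e2 : ((a : K) ^ 5) ^ 9 = (a : K) ^ 21 := by rw [← pow_mul, pow_eq_pow_mod _ h]
    have e3 : (((a : K) ^ 5) ^ 5) = (a : K) := by rw [← pow_mul, pow_eq_pow_mod _ h, pow_one]
    simp only [e1, e2, e3, bar_bar]
    ring
  · simp [mul_add]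

theorem th_one (x : CG K) : th 1 x = x := by ext <;> simp

theorem th_th (a b : Kˣ) (x : CG K) : th a (th b x) = th (a * b) x := by
  ext <;> simp [mul_pow, mul_assoc]

/-- the torus as automorphisms -/
def tor (K : Type*) [Field K] [F25 K] : Kˣ →* MulAut (CG K) where
  toFun a :=
    { toFun := th a
      invFun := th a⁻¹
      left_inv := fun x => by rw [th_th, inv_mul_cancel, th_one]
      right_inv := fun x => by rw [th_th, mul_inv_cancel, th_one]
      map_mul' := th_mul a }
  map_one' := MulEquiv.ext (fun x => th_one x)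
  map_mul' a b := MulEquiv.ext (fun x => (th_th a b x).symm)

@[simp] theorem tor_apply (a : Kˣ) (x : CG K) : tor K a x = th a x := rfl

end CG

end Cfsg.Agent.H771.M5
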