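import Cfsg.Agent.H777.Count
import Cfsg.Agent.H777.RealSimple
import Cfsg.Agent.H759.FusTransportD
import Cfsg.Agent.H759.FusNormal
import Cfsg.Agent.H802.FusGroup
import Cfsg.Agent.H777.PGrp

/-!
# An exotic subsystem of the fusion system of a finite group (helper771)

`exotic_of_sub` : let `E` be a saturated proper subsystem of the fusion system of `G₀` on its Sylow `p`-subgroup `S₀`,
without proper nontrivial strongly closed subgroups, `S₀` not normal in `E`, the center of `S₀` of order `p`. If `G₀` is the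
only simple group with a Sylow `p`-subgroup isomorphic to `S₀`, then (over every group `P` isomorphic to `S₀`) `E` is exotic
and has trivial core.
-/

set_option autoImplicit false
set_option linter.unusedSimpArgs false
set_option linter.unusedVariables false

namespace Cfsg.Agent.H771.M5

open Cfsg Cfsg.FusionSystem Cfsg.Agent.H802 Cfsg.Agent.H759 Cfsg.Agent.H777.Real

universe u v

section

variable {p : ℕ} [Fact p.Prime] {G₀ : Type v} [Group G₀] [Finite G₀] {S₀ : Subgroup G₀}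

/-- **Non-realizability** of a proper subsystem. -/
theorem not_realized_of_sub (T₀ : Sylow p G₀) (hT₀ : (T₀ : Subgroup G₀) = S₀) (E : FusionSystem S₀)
    (hle : ∀ (Q : Subgroup G₀) (φ : Q →* G₀), φ ∈ E.Hom Q → φ ∈ (groupFusionSystem S₀).Hom Q)
    (hne : ∃ (Q : Subgroup G₀) (φ : Q →* G₀), φ ∈ (groupFusionSystem S₀).Hom Q ∧ φ ∉ E.Hom Q)
    (hsc : ∀ A, E.StronglyClosed A → A = ⊥ ∨ A = S₀)
    (z₀ : G₀) (hz₀1 : z₀ ≠ 1) (hz₀S : z₀ ∈ S₀)
    (hz₀ : ∀ c ∈ S₀, c ≠ 1 → (∀ s ∈ S₀, c * s = s * c) → z₀ ∈ Subgroup.zpowers c)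
    {P : Type u} [Group P] [Finite P] {f : P →* G₀} (hf : Function.Injective f) (hfr : f.range = S₀)
    {X : FusionSystem (⊤ : Subgroup P)} (hX : IsPush hf X E)
    {G : Type u} [Group G] [Finite G] (ι : P →* G) (hι : Function.Injective ι) (T : Sylow p G)
    (hT : (T : Subgroup G) = ι.range)
    (hreal : ∀ (Q : Subgroup P) (φ : Q →* P), φ ∈ X.Hom Q ↔ Fus ι φ)
    (helim : ∀ (K : Type u) [Group K] [Finite K] [IsSimpleGroup K] (T' : Sylow p K), Nonempty (P ≃* T') →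
      Nonempty (K ≃* G₀)) : False := by
  have hpr : p.Prime := Fact.out
  have hSp : IsPGroup p S₀ := by rw [← hT₀]; exact T₀.2
  have hP : IsPGroup p P := by
    have h1 : IsPGroup p f.range := by rw [hfr]; exact hSp
    exact h1.of_injective f.rangeRestrict (fun x y h => hf (congrArg Subtype.val h))
  have hmemf : ∀ x, f x ∈ S₀ := fun x => by rw [← hfr]; exact ⟨x, rfl⟩
  have hscP : ∀ A : Subgroup P, (∀ a ∈ A, ∀ b : P, (∃ g : G, ι b = g * ι a * g⁻¹) → b ∈ A) → A = ⊥ ∨ A = ⊤ := by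
    intro A hA
    have h1 : X.StronglyClosed A := by
      refine ⟨le_top, fun R hR φ hφ x => ?_⟩
      obtain ⟨g, hg⟩ := (hreal R φ).1 hφ
      exact hA _ (hR x.2) _ ⟨g, hg x⟩
    rcases hsc _ (hX.stronglyClosed_iff.2 h1) with h | h
    · left
      exact (Subgroup.map_eq_bot_iff_of_injective _ hf).1 h
    · right
      apply Subgroup.map_injective hf
      rw [h, ← hfr, MonoidHom.range_eq_map]
  obtain ⟨z, hz⟩ : ∃ z, f z = z₀ := by
    have h1 : z₀ ∈ f.range := by rw [hfr]; exact hz₀S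
    exact h1
  have hz1 : z ≠ 1 := by
    rintro rfl
    rw [map_one] at hz
    exact hz₀1 hz.symm
  have hzmin : ∀ B : Subgroup P, B.Normal → B ≠ ⊥ → z ∈ B := by
    intro B hBn hB1
    obtain ⟨b, hb, hb1, hbc⟩ := Cfsg.Agent.H777.PGrp.inf_center_ne_bot hP hB1 hBn
    have hbc' : ∀ s ∈ S₀, f b * s = s * f b := by
      intro s hs
      rw [← hfr] at hs
      obtain ⟨y, rfl⟩ := hs
      rw [← map_mul, ← map_mul, hbc y]
    obtain ⟨k, hk⟩ := Subgroup.mem_zpowers_iff.1 (hz₀ (f b) (hmemf b) (fun h => hb1 (hf (by rw [h, map_one]))) hbc')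
    have h2 : b ^ k = z := by
      apply hf
      rw [map_zpow, hk, hz]
    rw [← h2]
    exact B.zpow_mem hb k
  obtain ⟨K, _, _, κ, hs, hκ, ⟨T', hT'⟩, hfus⟩ := exists_simple hP ι hι T hT hscP z hz1 hzmin
  obtain ⟨e⟩ := helim K T' ⟨(MonoidHom.ofInjective hκ).trans (MulEquiv.subgroupCongr hT'.symm)⟩
  -- the second embedding into `G₀`
  set κ' : P →* G₀ := e.toMonoidHom.comp κ with hκ'
  have hκ'i : Function.Injective κ' := e.injective.comp hκ
  have hFκ : ∀ (Q : Subgroup P) (φ : Q →* P), Fus κ' φ ↔ Fus κ φ := by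
    intro Q φ
    constructor
    · rintro ⟨g, hg⟩
      refine ⟨e.symm g, fun x => ?_⟩
      apply e.injective
      have h1 := hg x
      rw [map_mul, map_mul, map_inv, MulEquiv.apply_symm_apply]
      exact h1
    · rintro ⟨g, hg⟩
      refine ⟨e g, fun x => ?_⟩
      show e (κ (φ x)) = e g * e (κ x) * (e g)⁻¹
      rw [hg, map_mul, map_mul, map_inv]
  have hcS : Nat.card P = Nat.card S₀ := by
    rw [Nat.card_congr (MonoidHom.ofInjective hf).toEquiv, hfr]
  let T₂ : Sylow p G₀ := Sylow.ofCard κ'.range (by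
    rw [← Nat.card_congr (MonoidHom.ofInjective hκ'i).toEquiv, hcS, ← hT₀]
    exact T₀.card_eq_multiplicity)
  have hsub : ∀ (Q : Subgroup P) (φ : Q →* P), φ ∈ X.Hom Q → Fus f φ := by
    intro Q φ hφ
    have h1 := (hX.hom Q φ).2 hφ
    obtain ⟨-, -, g, hg⟩ := hle _ _ h1
    refine ⟨g, fun x => ?_⟩
    have h2 := hg (eqv hf Q x)
    rw [cb_eqv] at h2
    exact h2
  have hall := fus_iff_of_le (f := f) (κ := κ') hf hκ'i T₀ T₂ (by rw [hfr, hT₀]) rfl (fun Q φ h =>
    hsub Q φ ((hreal Q φ).2 (hfus Q φ ((hFκ Q φ).1 h))))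
  -- the contradiction
  obtain ⟨Q₀, φ₀, hφ₀, hφ₀'⟩ := hne
  have hQ₀S : Q₀ ≤ S₀ := hφ₀.1
  obtain ⟨Q, hQ⟩ := exists_eq_map (f := f) (P' := Q₀) (by rw [hfr]; exact hQ₀S)
  subst hQ
  obtain ⟨φ, rfl⟩ := exists_eq_cb hf φ₀ (fun y => by rw [hfr]; exact hφ₀.2.1 y)
  apply hφ₀'
  rw [hX.hom, hreal]
  have h1 : Fus f φ := by
    obtain ⟨-, -, g, hg⟩ := hφ₀
    refine ⟨g, fun x => ?_⟩
    have h2 := hg (eqv hf Q x)
    rw [cb_eqv] at h2
    exact h2
  exact hfus Q φ ((hFκ Q φ).1 (hall Q φ h1))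

/-- **A proper saturated subsystem without strongly closed subgroups is exotic with trivial core.** -/
theorem exotic_of_sub (T₀ : Sylow p G₀) (hT₀ : (T₀ : Subgroup G₀) = S₀) (E : FusionSystem S₀)
    (hle : ∀ (Q : Subgroup G₀) (φ : Q →* G₀), φ ∈ E.Hom Q → φ ∈ (groupFusionSystem S₀).Hom Q)
    (hne : ∃ (Q : Subgroup G₀) (φ : Q →* G₀), φ ∈ (groupFusionSystem S₀).Hom Q ∧ φ ∉ E.Hom Q)
    (hsat : E.IsSaturated p)
    (hsc : ∀ A, E.StronglyClosed A → A = ⊥ ∨ A = S₀) (hnn : ¬ E.IsNormal S₀)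
    (z₀ : G₀) (hz₀1 : z₀ ≠ 1) (hz₀S : z₀ ∈ S₀)
    (hz₀ : ∀ c ∈ S₀, c ≠ 1 → (∀ s ∈ S₀, c * s = s * c) → z₀ ∈ Subgroup.zpowers c)
    {P : Type u} [Group P] [Finite P] (T : Sylow p G₀) (e : P ≃* ↥(T : Subgroup G₀))
    (helim : ∀ (K : Type u) [Group K] [Finite K] [IsSimpleGroup K] (T' : Sylow p K), Nonempty (P ≃* T') →
      Nonempty (K ≃* G₀)) :
    ∃ F : FusionSystem (⊤ : Subgroup P), F.core = ⊥ ∧ F.IsExotic p := by
  -- an embedding with image the standard Sylow subgroup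
  obtain ⟨g, hg⟩ := MulAction.exists_smul_eq G₀ T T₀
  let f : P →* G₀ := (MulAut.conj g).toMonoidHom.comp ((T : Subgroup G₀).subtype.comp e.toMonoidHom)
  have hf : Function.Injective f :=
    (MulAut.conj g).injective.comp ((Subgroup.subtype_injective _).comp e.injective)
  have hfr : f.range = S₀ := by
    rw [← hT₀, ← hg, Sylow.coe_subgroup_smul]
    ext y
    constructor
    · rintro ⟨x, rfl⟩
      exact ⟨e x, (e x).2, rfl⟩
    · rintro ⟨t, ht, rfl⟩
      refine ⟨e.symm ⟨t, ht⟩, ?_⟩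
      show g * ((e (e.symm ⟨t, ht⟩) : (T : Subgroup G₀)) : G₀) * g⁻¹ = g * t * g⁻¹
      rw [MulEquiv.apply_symm_apply]
  obtain ⟨X, hX⟩ := exists_pull' (hf := hf) (T₁ := (⊤ : Subgroup P))
    (show S₀ = (⊤ : Subgroup P).map f by rw [← hfr, MonoidHom.range_eq_map]) E
  have hcore : E.core = ⊥ := by
    unfold FusionSystem.core
    rw [eq_bot_iff]
    refine sSup_le fun Q hQ => ?_
    have h1 := Cfsg.Agent.H759.IsNormal.stronglyClosed hQ
    rcases hsc _ h1 with h | h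
    · exact h.le
    · exfalso
      subst h
      exact hnn hQ
  refine ⟨X, ?_, ?_, ?_⟩
  · have h1 := hX.core_eq
    rw [hcore] at h1
    exact (Subgroup.map_eq_bot_iff_of_injective _ hf).1 h1.symm
  · exact hX.isSaturated_iff.1 hsat
  · rintro ⟨G, _, _, ι, hreal, S, hS⟩
    have hι : Function.Injective (ι.comp (Subgroup.topEquiv (G := P)).symm.toMonoidHom) :=
      hreal.1.comp (Subgroup.topEquiv (G := P)).symm.injective
    refine not_realized_of_sub T₀ hT₀ E hle hne hsc z₀ hz₀1 hz₀S hz₀ hf hfr hX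
      (ι.comp (Subgroup.topEquiv (G := P)).symm.toMonoidHom) hι S ?_ ?_ helim
    · rw [hS]
      ext y
      constructor
      · rintro ⟨x, rfl⟩
        exact ⟨x, rfl⟩
      · rintro ⟨x, rfl⟩
        exact ⟨_, rfl⟩
    · intro Q φ
      exact hreal.2 Q le_top φ (fun x => Subgroup.mem_top _)

end

end Cfsg.Agent.H771.M5
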