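import Cfsg.Agent.H771.M5.NotRealA

/-!
# A group with the fusion of the exotic system involves a simple group with Sylow 5-subgroup `CG` (helper771)
-/

set_option autoImplicit false
set_option linter.unusedSectionVars false
set_option linter.style.haveILetI false

namespace Cfsg.Agent.H771.M5

open CG Cfsg Cfsg.Agent.H777.Real Cfsg.Agent.Lib.Cores

universe v

variable {K : Type*} [Field K] [F25 K]

/-- passage to the quotient modulo a normal subgroup of order prime to 5 -/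
theorem Facts.quotient {G : Type v} [Group G] [Finite G] {ι : CG K →* G} (hF : Facts ι) (N₀ : Subgroup G)
    [N₀.Normal] (hN₀c : (Nat.card N₀).Coprime 5) : Facts ((QuotientGroup.mk' N₀).comp ι) := by
  haveI : Fact (Nat.Prime 5) := ⟨by norm_num⟩
  have hP := CG.isPGroup K
  set ι₁ : CG K →* G ⧸ N₀ := (QuotientGroup.mk' N₀).comp ι with hι₁
  have hrp : IsPGroup 5 ι.range := hP.of_surjective ι.rangeRestrict ι.rangeRestrict_surjective
  have hinj₁ : Function.Injective ι₁ := by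
    rw [injective_iff_map_eq_one]
    intro x hx
    have h1 : ι x ∈ N₀ := (QuotientGroup.eq_one_iff _).1 hx
    have h2 := H803.eq_one_of_mem_of_coprime hrp hN₀c (⟨x, rfl⟩ : ι x ∈ ι.range) h1
    exact (injective_iff_map_eq_one ι).1 hF.inj x h2
  refine ⟨hinj₁, ?_, ?_, ?_⟩
  · intro a
    obtain ⟨g, hg⟩ := hF.tor a
    refine ⟨QuotientGroup.mk' N₀ g, fun x => ?_⟩
    rw [hι₁, MonoidHom.comp_apply, MonoidHom.comp_apply, hg, map_mul, map_mul, map_inv]
  · intro m
    obtain ⟨g, hg⟩ := hF.sl m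
    refine ⟨QuotientGroup.mk' N₀ g, fun x => ?_⟩
    rw [hι₁, MonoidHom.comp_apply, MonoidHom.comp_apply, hg, map_mul, map_mul, map_inv]
  · intro g' hg'
    obtain ⟨φ, hφ⟩ := exists_fus hinj₁ hg'
    obtain ⟨g, rfl⟩ := QuotientGroup.mk_surjective g'
    obtain ⟨k, hk, hke⟩ := H803.exists_conj_of_congr (hP.to_subgroup (NC K))
      ((MulAut.conj g).toMonoidHom.comp (ι.comp (NC K).subtype)) (ι.comp φ) N₀ hN₀c (fun x => by
        rw [← QuotientGroup.eq]
        exact (hφ x).symm)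
    have h1 : ∀ x : NC K, ι (φ x) = (k * g) * ι x * (k * g)⁻¹ := by
      intro x
      have h2 : ι (φ x) = k * (g * ι x * g⁻¹) * k⁻¹ := hke x
      rw [h2]
      group
    obtain ⟨s, a, hsa⟩ := hF.norN (k * g) (fun x hx => ⟨φ ⟨x, hx⟩, h1 ⟨x, hx⟩⟩)
    refine ⟨s, a, fun x hx => ?_⟩
    have h2 := hφ ⟨x, hx⟩
    have h3 := h1 ⟨x, hx⟩
    rw [hsa x hx] at h3
    rw [← hF.inj h3]
    exact h2.symm

theorem Facts.exists_simple {G : Type v} [Group G] [Finite G] {ι : CG K →* G} (hF : Facts ι) (T : Sylow 5 G)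
    (hT : (T : Subgroup G) = ι.range) :
    ∃ (M : Type v) (_ : Group M) (_ : Finite M) (κ : CG K →* M), IsSimpleGroup M ∧ Function.Injective κ ∧
      ∃ T' : Sylow 5 M, (T' : Subgroup M) = κ.range := by
  haveI : Fact (Nat.Prime 5) := ⟨by norm_num⟩
  haveI := CG.finite K
  have hp : Nat.Prime 5 := Fact.out
  set N₀ := pPrimeCore 5 G with hN₀
  have hN₀c : (Nat.card N₀).Coprime 5 := pPrimeCore_coprime 5
  have hF₁ := hF.quotient N₀ hN₀c
  set ι₁ : CG K →* G ⧸ N₀ := (QuotientGroup.mk' N₀).comp ι with hι₁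
  have hcard : Nat.card (CG K) = 5 ^ (Nat.card G).factorization 5 := by
    rw [Nat.card_congr (MonoidHom.ofInjective hF.inj).toEquiv, ← hT]
    exact T.card_eq_multiplicity
  have hfac : (Nat.card G).factorization 5 = (Nat.card (G ⧸ N₀)).factorization 5 := by
    rw [Subgroup.card_eq_card_quotient_mul_card_subgroup N₀,
      Nat.factorization_mul Nat.card_pos.ne' Nat.card_pos.ne']
    have h1 : (Nat.card N₀).factorization 5 = 0 :=
      Nat.factorization_eq_zero_of_not_dvd ((Nat.Prime.coprime_iff_not_dvd hp).1 hN₀c.symm)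
    simp [h1]
  let T₁ : Sylow 5 (G ⧸ N₀) := Sylow.ofCard ι₁.range (by
    rw [← Nat.card_congr (MonoidHom.ofInjective hF₁.inj).toEquiv, hcard, hfac])
  have hT₁ : (T₁ : Subgroup (G ⧸ N₀)) = ι₁.range := rfl
  have hcore : pPrimeCore 5 (G ⧸ N₀) = ⊥ := pPrimeCore_quotient_pPrimeCore 5
  have hvne : ∀ {d : K}, d ≠ 0 → ι₁ (vv (0, d)) ≠ 1 := by
    intro d hd h
    have h1 : vv ((0 : K), d) = vv 0 := by rw [vv_one]; exact hF₁.inj (by rw [h, map_one])
    exact hd (congrArg Prod.snd (vv_injective h1))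
  -- a minimal normal subgroup
  have htop : (⊤ : Subgroup (G ⧸ N₀)) ≠ ⊥ := by
    intro h
    have h2 : ι₁ (vv (0, 1)) ∈ (⊥ : Subgroup (G ⧸ N₀)) := by rw [← h]; exact Subgroup.mem_top _
    exact hvne one_ne_zero (Subgroup.mem_bot.1 h2)
  obtain ⟨M, hMn, hM1, -, hMmin⟩ := exists_min (⊤ : Subgroup (G ⧸ N₀)) inferInstance htop
  have hMp : ¬ (Nat.card M).Coprime 5 := by
    intro h
    have h2 := le_pPrimeCore hMn h
    rw [hcore] at h2
    exact hM1 (le_bot_iff.1 h2)
  have hrM : ι₁.range ≤ M := by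
    rcases hF₁.trichotomy hMn with h | h | h
    · exfalso
      obtain ⟨x, hxM, hxT, hx1⟩ := exists_mem_sylow T₁ hMp
      rw [hT₁] at hxT
      obtain ⟨y, rfl⟩ := hxT
      have h2 : y ∈ M.comap ι₁ := hxM
      rw [h, Subgroup.mem_bot] at h2
      exact hx1 (by rw [h2, map_one])
    · exact absurd (hF₁.false_of_N T₁ hT₁ hMn h) not_false
    · rintro _ ⟨x, rfl⟩
      have h2 : x ∈ M.comap ι₁ := by rw [h]; exact Subgroup.mem_top _
      exact h2
  set κ : CG K →* M := ι₁.codRestrict M (fun x => hrM ⟨x, rfl⟩) with hκ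
  have hκi : Function.Injective κ := fun a b hab => hF₁.inj (congrArg Subtype.val hab)
  have hT₁M : (T₁ : Subgroup (G ⧸ N₀)) ≤ M := hrM
  have hTM : ((T₁.subtype hT₁M : Sylow 5 M) : Subgroup M) = κ.range := by
    ext x
    constructor
    · intro hx
      have h2 : (x : G ⧸ N₀) ∈ ι₁.range := hx
      obtain ⟨y, hy⟩ := h2
      exact ⟨y, Subtype.ext hy⟩
    · rintro ⟨y, rfl⟩
      exact ⟨y, rfl⟩
  have hMcore : pPrimeCore 5 M = ⊥ := by
    have h := map_subtype_pPrimeCore 5 hMn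
    rw [hcore, inf_bot_eq] at h
    exact (Subgroup.map_eq_bot_iff_of_injective _ M.subtype_injective).1 h
  -- every nontrivial normal subgroup of `M` meets `Z`
  have hzK : ∀ X : Subgroup M, X.Normal → X ≠ ⊥ → ∃ d : K, d ≠ 0 ∧ κ (vv (0, d)) ∈ X := by
    intro X hXn hX1
    have hXp : ¬ (Nat.card X).Coprime 5 := by
      intro h
      have h2 := le_pPrimeCore hXn h
      rw [hMcore] at h2
      exact hX1 (le_bot_iff.1 h2)
    obtain ⟨x, hxK, hxT, hx1⟩ := exists_mem_sylow (T₁.subtype hT₁M) hXp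
    rw [hTM] at hxT
    obtain ⟨y, rfl⟩ := hxT
    have hne : X.comap κ ≠ ⊥ := by
      intro h
      have h2 : y ∈ X.comap κ := hxK
      rw [h, Subgroup.mem_bot] at h2
      exact hx1 (by rw [h2, map_one])
    obtain ⟨b, hb, hb1, hbc⟩ := Cfsg.Agent.H777.PGrp.inf_center_ne_bot (CG.isPGroup K) hne inferInstance
    obtain ⟨d, rfl⟩ := center_eq (fun y => (hbc y).symm)
    refine ⟨d, fun h => hb1 ?_, hb⟩
    rw [h]
    rfl
  have hnt : Nontrivial M := ⟨κ (vv (0, 1)), 1, fun h => hvne one_ne_zero (congrArg Subtype.val h)⟩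
  have hsimple : IsSimpleGroup M := by
    refine ⟨fun H hHn => ?_⟩
    by_cases hH1 : H = ⊥
    · exact Or.inl hH1
    right
    obtain ⟨K₀, hKn, hK1, hKH, hKmin⟩ := exists_min H hHn hH1
    let cg : G ⧸ N₀ → Subgroup M := fun g => K₀.map (MulAut.conjNormal g : MulAut M).toMonoidHom
    have hcgn : ∀ g, (cg g).Normal := fun g => hKn.map _ (MulAut.conjNormal g : MulAut M).surjective
    have hcg1 : ∀ g, cg g ≠ ⊥ := fun g h =>
      hK1 ((Subgroup.map_eq_bot_iff_of_injective _ (MulAut.conjNormal g : MulAut M).injective).1 h)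
    have hcgc : ∀ g, Nat.card (cg g) = Nat.card K₀ := fun g =>
      (Nat.card_congr (K₀.equivMapOfInjective _ (MulAut.conjNormal g : MulAut M).injective).toEquiv).symm
    have hmemcg : ∀ (g : G ⧸ N₀) (x : M), x ∈ K₀ → ∀ y : M, (y : G ⧸ N₀) = g * x * g⁻¹ → y ∈ cg g := by
      intro g x hx y hy
      exact ⟨x, hx, Subtype.ext hy.symm⟩
    have hdich : ∀ g, K₀ ⊓ cg g = ⊥ ∨ cg g = K₀ := by
      intro g
      by_cases h : K₀ ⊓ cg g = ⊥
      · exact Or.inl h
      · right
        haveI := hcgn g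
        have h2 := hKmin (K₀ ⊓ cg g) inferInstance h inf_le_left
        have h3 : K₀ ≤ cg g := inf_eq_left.1 h2
        exact (Subgroup.eq_of_le_of_card_ge h3 (hcgc g).le).symm
    have hcomm : ∀ g, K₀ ⊓ cg g = ⊥ → ∀ x ∈ K₀, ∀ y ∈ cg g, x * y = y * x := by
      intro g h x hx y hy
      exact Subgroup.commute_of_normal_of_disjoint K₀ (cg g) hKn (hcgn g) (disjoint_iff.2 h) x y hx hy
    have hinv : ∀ g : G ⧸ N₀, cg g = K₀ := by
      by_contra hcon
      push Not at hcon
      obtain ⟨g, hg⟩ := hcon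
      have hgb := (hdich g).resolve_right hg
      obtain ⟨d1, hd1, hz1⟩ := hzK K₀ hKn hK1
      obtain ⟨d2, hd2, hz2⟩ := hzK (cg g) (hcgn g) (hcg1 g)
      have hκz : ∀ {d : K}, κ (vv (0, d)) = 1 → d = 0 := by
        intro d h
        by_contra hd
        exact hvne hd (congrArg Subtype.val h)
      have hadd : vv ((0 : K), d1) * vv (0, d2) = vv (0, d1 + d2) := by
        rw [vv_mul]
        congr 1
        ext <;> simp
      have hd12 : d1 + d2 ≠ 0 := by
        intro h
        have h1 : κ (vv (0, d1)) = (κ (vv (0, d2)))⁻¹ := by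
          rw [eq_inv_iff_mul_eq_one, ← map_mul, hadd, h]
          exact map_one κ
        have h2 : κ (vv (0, d1)) ∈ K₀ ⊓ cg g := ⟨hz1, by rw [h1]; exact (cg g).inv_mem hz2⟩
        rw [hgb, Subgroup.mem_bot] at h2
        exact hd1 (hκz h2)
      -- the third conjugate
      let a : Kˣ := Units.mk0 (d1 / (d1 + d2)) (div_ne_zero hd1 hd12)
      have ha : (a : K) = d1 / (d1 + d2) := rfl
      have hth : th a (vv (0, d1)) = vv (0, d1 + d2) := by
        rw [th_vv, mul_zero]
        congr 2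
        have h1 : (a : K) * (a : K) ^ 23 = 1 := by
          rw [← pow_succ']
          exact units_pow a
        apply mul_left_cancel₀ a.ne_zero
        rw [← mul_assoc, h1, ha]
        field_simp
      obtain ⟨g3, hg3⟩ := hF₁.tor a
      have hz3 : κ (vv (0, d1 + d2)) ∈ cg g3 := by
        refine hmemcg g3 (κ (vv (0, d1))) hz1 _ ?_
        show ι₁ (vv (0, d1 + d2)) = g3 * ι₁ (vv (0, d1)) * g3⁻¹
        rw [← hg3, hth]
      have hz12 : κ (vv (0, d1)) * κ (vv (0, d2)) = κ (vv (0, d1 + d2)) := by rw [← map_mul, hadd]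
      -- `κ z₁` centralizes `K₀`
      have hcent : ∀ x ∈ K₀, x * κ (vv (0, d1)) = κ (vv (0, d1)) * x := by
        intro x hx
        rcases hdich g3 with h3 | h3
        · have e1 := hcomm g3 h3 x hx _ hz3
          have e2 := hcomm g hgb x hx _ hz2
          have e3 : κ (vv (0, d1)) = κ (vv (0, d1 + d2)) * (κ (vv (0, d2)))⁻¹ := by
            rw [← hz12, mul_inv_cancel_right]
          have e4 : x * (κ (vv (0, d2)))⁻¹ = (κ (vv (0, d2)))⁻¹ * x := by
            rw [eq_inv_mul_iff_mul_eq, ← mul_assoc, ← e2, mul_inv_cancel_right]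
          rw [e3, ← mul_assoc, e1, mul_assoc, e4, mul_assoc]
        · exfalso
          rw [h3] at hz3
          have h4 : κ (vv (0, d2)) ∈ K₀ := by
            have : κ (vv (0, d2)) = (κ (vv (0, d1)))⁻¹ * κ (vv (0, d1 + d2)) := by
              rw [← hz12, inv_mul_cancel_left]
            rw [this]
            exact K₀.mul_mem (K₀.inv_mem hz1) hz3
          have h5 : κ (vv (0, d2)) ∈ K₀ ⊓ cg g := ⟨h4, hz2⟩
          rw [hgb, Subgroup.mem_bot] at h5
          exact hd2 (hκz h5)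
      -- `K₀` is abelian
      have hab : ∀ x ∈ K₀, ∀ y ∈ K₀, x * y = y * x := by
        have h1 : K₀ ⊓ Subgroup.centralizer (K₀ : Set M) = K₀ := by
          refine hKmin _ inferInstance ?_ inf_le_left
          intro h
          have h2 : κ (vv (0, d1)) ∈ K₀ ⊓ Subgroup.centralizer (K₀ : Set M) :=
            ⟨hz1, Subgroup.mem_centralizer_iff.2 fun x hx => hcent x hx⟩
          rw [h, Subgroup.mem_bot] at h2
          exact hd1 (hκz h2)
        intro x hx y hy
        have h2 : y ∈ Subgroup.centralizer (K₀ : Set M) := (inf_eq_left.1 h1) hy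
        exact Subgroup.mem_centralizer_iff.1 h2 x hx
      have hall : ∀ (k : G ⧸ N₀), ∀ x ∈ K₀, ∀ y ∈ cg k, x * y = y * x := by
        intro k x hx y hy
        rcases hdich k with h | h
        · exact hcomm k h x hx y hy
        · rw [h] at hy
          exact hab x hx y hy
      -- the centralizer of all conjugates
      let Sgm : Set (G ⧸ N₀) := {y | ∃ (k : G ⧸ N₀), ∃ x ∈ K₀, y = k * (x : G ⧸ N₀) * k⁻¹}
      let D : Subgroup (G ⧸ N₀) := Subgroup.centralizer Sgm
      have hDn : D.Normal := by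
        refine ⟨fun c hc k => ?_⟩
        refine Subgroup.mem_centralizer_iff.2 ?_
        rintro _ ⟨j, x, hx, rfl⟩
        have h1 := Subgroup.mem_centralizer_iff.1 hc ((k⁻¹ * j) * (x : G ⧸ N₀) * (k⁻¹ * j)⁻¹) ⟨_, x, hx, rfl⟩
        calc j * (x : G ⧸ N₀) * j⁻¹ * (k * c * k⁻¹)
            = k * ((k⁻¹ * j) * (x : G ⧸ N₀) * (k⁻¹ * j)⁻¹ * c) * k⁻¹ := by group
          _ = k * (c * ((k⁻¹ * j) * (x : G ⧸ N₀) * (k⁻¹ * j)⁻¹)) * k⁻¹ := by rw [h1]
          _ = _ := by group
      have hKD : ∀ x ∈ K₀, (x : G ⧸ N₀) ∈ D := by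
        intro x hx
        refine Subgroup.mem_centralizer_iff.2 ?_
        rintro _ ⟨j, y, hy, rfl⟩
        have h1 := hall j x hx ⟨j * (y : G ⧸ N₀) * j⁻¹, hMn.conj_mem _ y.2 j⟩ (hmemcg j y hy _ rfl)
        exact (congrArg Subtype.val h1).symm
      have hMD : M ≤ D := by
        have h1 := hMmin (M ⊓ D) inferInstance (by
          intro h
          have h2 : (κ (vv (0, d1)) : G ⧸ N₀) ∈ M ⊓ D := ⟨(κ (vv (0, d1))).2, hKD _ hz1⟩
          rw [h, Subgroup.mem_bot] at h2
          exact hd1 (hκz (Subtype.ext h2))) inf_le_left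
        exact inf_eq_left.1 h1
      have hMM : M ≤ Subgroup.centralizer (M : Set (G ⧸ N₀)) := by
        have h1 := hMmin (M ⊓ Subgroup.centralizer (M : Set (G ⧸ N₀))) inferInstance (by
          intro h
          have h2 : (κ (vv (0, d1)) : G ⧸ N₀) ∈ M ⊓ Subgroup.centralizer (M : Set (G ⧸ N₀)) := by
            refine ⟨(κ (vv (0, d1))).2, Subgroup.mem_centralizer_iff.2 fun x hx => ?_⟩
            have h3 := Subgroup.mem_centralizer_iff.1 (hMD hx) (κ (vv (0, d1)) : G ⧸ N₀)
              ⟨1, _, hz1, by simp⟩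
            exact h3.symm
          rw [h, Subgroup.mem_bot] at h2
          exact hd1 (hκz (Subtype.ext h2))) inf_le_left
        exact inf_eq_left.1 h1
      obtain ⟨x, -, y, -, hxy⟩ := NC_nonabelian (K := K)
      apply hxy
      apply hF₁.inj
      rw [map_mul, map_mul]
      exact Subgroup.mem_centralizer_iff.1 (hMM (hrM ⟨y, rfl⟩)) _ (hrM ⟨x, rfl⟩)
    have hKG : (K₀.map M.subtype).Normal := by
      refine ⟨?_⟩
      rintro _ ⟨x, hx, rfl⟩ g
      have h1 := hmemcg g x hx ⟨g * (x : G ⧸ N₀) * g⁻¹, hMn.conj_mem _ x.2 g⟩ rfl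
      rw [hinv g] at h1
      exact ⟨_, h1, rfl⟩
    have h4 := hMmin (K₀.map M.subtype) hKG (by
      intro h
      exact hK1 ((Subgroup.map_eq_bot_iff_of_injective _ M.subtype_injective).1 h))
      (Subgroup.map_subtype_le K₀)
    have h5 : K₀ = ⊤ := by
      apply Subgroup.map_injective M.subtype_injective
      rw [h4, ← MonoidHom.range_eq_map, Subgroup.range_subtype]
    exact top_le_iff.1 (h5 ▸ hKH)
  exact ⟨M, inferInstance, inferInstance, κ, hsimple, hκi, T₁.subtype hT₁M, hTM⟩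

/-- **No finite group has this fusion**, given the elimination of the simple groups. -/
theorem Facts.false {G : Type v} [Group G] [Finite G] {ι : CG K →* G} (hF : Facts ι) (T : Sylow 5 G)
    (hT : (T : Subgroup G) = ι.range)
    (helim : ∀ (L : Type v) [Group L] [Finite L] [IsSimpleGroup L], 5 ^ 8 ∣ Nat.card L → ¬ 5 ^ 9 ∣ Nat.card L →
      ∃ A : Subgroup L, IsPGroup 5 A ∧ (∀ x ∈ A, ∀ y ∈ A, x * y = y * x) ∧ 5 ^ 5 ≤ Nat.card A) : False := by
  haveI : Fact (Nat.Prime 5) := ⟨by norm_num⟩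
  haveI := CG.finite K
  obtain ⟨M, _, _, κ, hs, hκ, T', hT'⟩ := hF.exists_simple T hT
  have hcard : Nat.card (T' : Subgroup M) = 5 ^ 8 := by
    rw [hT', ← Nat.card_congr (MonoidHom.ofInjective hκ).toEquiv, CG.card]
  have hfac : (Nat.card M).factorization 5 = 8 := by
    have h2 := T'.card_eq_multiplicity
    have h3 : Nat.card T' = 5 ^ 8 := hcard
    rw [h3] at h2
    exact (Nat.pow_right_injective (by norm_num : 2 ≤ 5) h2).symm
  obtain ⟨A, hA, hab, hc⟩ := helim M
    (by rw [Nat.Prime.pow_dvd_iff_le_factorization (by norm_num) Nat.card_pos.ne', hfac])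
    (by
      rw [Nat.Prime.pow_dvd_iff_le_factorization (by norm_num) Nat.card_pos.ne', hfac]
      norm_num)
  obtain ⟨Q, hQ⟩ := hA.exists_le_sylow
  obtain ⟨g, hg⟩ := MulAction.exists_smul_eq M Q T'
  have hmem : ∀ a ∈ A, ∃ y : CG K, κ y = g * a * g⁻¹ := by
    intro a ha
    have h1 : g * a * g⁻¹ ∈ (T' : Subgroup M) := by
      rw [← hg, Sylow.coe_subgroup_smul]
      exact ⟨a, hQ ha, rfl⟩
    rw [hT'] at h1
    obtain ⟨y, hy⟩ := h1
    exact ⟨y, hy⟩
  let B : Subgroup (CG K) := (A.map (MulAut.conj g).toMonoidHom).comap κ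
  have hB : ∀ y, y ∈ B ↔ ∃ a ∈ A, κ y = g * a * g⁻¹ := by
    intro y
    constructor
    · rintro ⟨a, ha, h⟩
      exact ⟨a, ha, h.symm⟩
    · rintro ⟨a, ha, h⟩
      exact ⟨a, ha, h.symm⟩
  have hBab : ∀ x ∈ B, ∀ y ∈ B, x * y = y * x := by
    intro x hx y hy
    obtain ⟨a, ha, e1⟩ := (hB x).1 hx
    obtain ⟨b, hb, e2⟩ := (hB y).1 hy
    apply hκ
    rw [map_mul, map_mul, e1, e2]
    calc g * a * g⁻¹ * (g * b * g⁻¹) = g * (a * b) * g⁻¹ := by group
      _ = g * (b * a) * g⁻¹ := by rw [hab a ha b hb]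
      _ = _ := by group
  have hle := abelian_card_le B hBab
  have h1 : Nat.card A ≤ Nat.card B := by
    choose y hy using hmem
    refine Nat.card_le_card_of_injective (fun a : A => (⟨y a a.2, (hB _).2 ⟨a, a.2, hy a a.2⟩⟩ : B)) ?_
    intro a a' h
    have h2 : y a a.2 = y a' a'.2 := congrArg Subtype.val h
    have h3 : g * (a : M) * g⁻¹ = g * (a' : M) * g⁻¹ := by rw [← hy a a.2, ← hy a' a'.2, h2]
    exact Subtype.ext (mul_left_cancel (mul_right_cancel h3))
  have h2 := hc.trans (h1.trans hle)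
  norm_num at h2

end Cfsg.Agent.H771.M5
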