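import Cfsg.Agent.H771.M5.SysB
import Cfsg.Agent.H771.M5.NotRealB
import Cfsg.Agent.H759.FusTransportD

/-!
# An exotic fusion system over `CG` in which `CG` is not normal (helper771)
-/

set_option autoImplicit false
set_option linter.unusedSectionVars false
set_option linter.style.haveILetI false

namespace Cfsg.Agent.H771.M5

open SemidirectProduct CG Cfsg Cfsg.FusionSystem Cfsg.Agent.H802 Cfsg.Agent.H775.Ext Cfsg.Agent.H759
  Cfsg.Agent.H777.Real

universe u

variable {K : Type*} [Field K] [F25 K]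

theorem hinl : Function.Injective (inl : CG K →* HG K) := inl_injective

theorem NH_not_sub : ¬ Sub (F0 K) (VH K) ((NC K).map (inl : CG K →* HG K)) := by
  haveI := HG_finite K
  intro h
  have h1 := card_le_of_sub VH_le h
  rw [card_map hinl, card_NC] at h1
  have h2 : Nat.card (VH K) = 5 ^ 4 := by
    show Nat.card ((VC K).map (inl : CG K →* HG K)) = _
    rw [card_map hinl, card_VC]
  rw [h2] at h1
  norm_num at h1

/-- the fusion in a group realizing the system -/
theorem facts {G : Type*} [Group G] {ι : CG K →* G} (hι : Function.Injective ι)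
    {XC : FusionSystem (⊤ : Subgroup (CG K))} (hXC : IsPush hinl XC (DS K))
    (hreal : ∀ (Q : Subgroup (CG K)) (φ : Q →* CG K), φ ∈ XC.Hom Q ↔ Fus ι φ) : Facts ι := by
  refine ⟨hι, ?_, ?_, ?_⟩
  · intro a
    let φ : (⊤ : Subgroup (CG K)) →* CG K := (CG.tor K a).toMonoidHom.comp (⊤ : Subgroup (CG K)).subtype
    have h1 : cb hinl φ ∈ (DS K).Hom ((⊤ : Subgroup (CG K)).map (inl : CG K →* HG K)) := by
      refine le_ext (F₀ := F0 K) (VH_le (K := K)) _ ⟨?_, ?_, inr a, ?_⟩
      · rintro _ ⟨x, -, rfl⟩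
        exact inl_mem x
      · intro y
        obtain ⟨x, rfl⟩ := (eqv hinl _).surjective y
        rw [cb_eqv]
        exact inl_mem _
      · intro y
        obtain ⟨x, rfl⟩ := (eqv hinl _).surjective y
        rw [cb_eqv]
        show inl (th a (x : CG K)) = inr a * inl (x : CG K) * (inr a)⁻¹
        rw [conj_inl]
        simp
    have h2 := (hreal _ φ).1 ((hXC.hom _ φ).1 h1)
    obtain ⟨g, hg⟩ := h2
    exact ⟨g, fun x => hg ⟨x, Subgroup.mem_top x⟩⟩
  · intro m
    let φ' : (VC K).map (inl : CG K →* HG K) →* HG K := (VH K).subtype.comp (rho K m).toMonoidHom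
    have h1 : φ' ∈ (DS K).Hom ((VC K).map (inl : CG K →* HG K)) :=
      delta_mem_ext (F₀ := F0 K) (Δ := Del K) (VH_le (K := K)) ⟨m, rfl⟩
    obtain ⟨φ, hφ⟩ := exists_eq_cb hinl φ' (fun y => VH_le ((rho K m y).2))
    rw [hφ] at h1
    obtain ⟨g, hg⟩ := (hreal _ φ).1 ((hXC.hom _ φ).1 h1)
    refine ⟨g, fun w => ?_⟩
    have h2 := hg ⟨vv w, vv_mem w⟩
    rw [← h2]
    congr 1
    apply hinl
    rw [← cb_apply hinl φ ⟨vv w, vv_mem w⟩ (mem_VH.2 ⟨w, rfl⟩), ← hφ]
    have h3 := rho_apply m w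
    exact (congrArg Subtype.val h3).symm
  · intro g hg
    obtain ⟨φ, hφ⟩ := exists_fus hι hg
    have h1 := (hXC.hom _ φ).2 ((hreal _ φ).2 ⟨g, hφ⟩)
    obtain ⟨-, -, g0, hg0⟩ := mem_of_not_sub (VH_le (K := K)) h1 NH_not_sub
    refine ⟨g0.left, g0.right, fun x hx => ?_⟩
    have h2 := hg0 (eqv hinl _ ⟨x, hx⟩)
    rw [cb_eqv, coe_eqv, conj_inl] at h2
    rw [← hinl h2]
    exact (hφ ⟨x, hx⟩).symm

/-- **The exotic system.** -/
theorem exists_exotic {Ω : Type u} [Group Ω] {T : Subgroup Ω} (e : CG K ≃* T)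
    (helim : ∀ (L : Type u) [Group L] [Finite L] [IsSimpleGroup L], 5 ^ 8 ∣ Nat.card L → ¬ 5 ^ 9 ∣ Nat.card L →
      ∃ A : Subgroup L, IsPGroup 5 A ∧ (∀ x ∈ A, ∀ y ∈ A, x * y = y * x) ∧ 5 ^ 5 ≤ Nat.card A) :
    ∃ F : FusionSystem T, F.IsExotic 5 ∧ ¬ F.IsNormal T := by
  haveI : Fact (Nat.Prime 5) := ⟨by norm_num⟩
  haveI := CG.finite K
  have hSH : SH K = (⊤ : Subgroup (CG K)).map (inl : CG K →* HG K) := MonoidHom.range_eq_map _
  obtain ⟨XC, hXC⟩ := exists_pull' (hf := hinl) hSH (DS K)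
  let f : CG K →* Ω := T.subtype.comp e.toMonoidHom
  have hf : Function.Injective f := T.subtype_injective.comp e.injective
  have hTf : T = (⊤ : Subgroup (CG K)).map f := by
    ext y
    constructor
    · intro hy
      refine ⟨e.symm ⟨y, hy⟩, Subgroup.mem_top _, ?_⟩
      show ((e (e.symm ⟨y, hy⟩) : T) : Ω) = y
      rw [MulEquiv.apply_symm_apply]
    · rintro ⟨x, -, rfl⟩
      exact (e x).2
  obtain ⟨X, hX⟩ := exists_push' (hf := hf) hTf XC
  refine ⟨X, ⟨?_, ?_⟩, ?_⟩
  · rw [hX.isSaturated_iff, ← hXC.isSaturated_iff]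
    exact DS_sat
  · rintro ⟨G, _, _, ι', hreal, S, hS⟩
    let ι : CG K →* G := ι'.comp e.toMonoidHom
    have hι : Function.Injective ι := hreal.1.comp e.injective
    have hSι : (S : Subgroup G) = ι.range := by
      rw [hS]
      ext y
      constructor
      · rintro ⟨x, rfl⟩
        refine ⟨e.symm x, ?_⟩
        show ι' (e (e.symm x)) = ι' x
        rw [MulEquiv.apply_symm_apply]
      · rintro ⟨x, rfl⟩
        exact ⟨_, rfl⟩
    have key : ∀ (Q : Subgroup (CG K)) (φ : Q →* CG K), φ ∈ XC.Hom Q ↔ Fus ι φ := by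
      intro Q φ
      have hQT : Q.map f ≤ T := by
        rintro _ ⟨x, -, rfl⟩
        exact (e x).2
      have hφT : ∀ y : Q.map f, cb hf φ y ∈ T := by
        intro y
        obtain ⟨x, rfl⟩ := (eqv hf Q).surjective y
        rw [cb_eqv]
        exact (e _).2
      rw [← hX.hom, hreal.2 (Q.map f) hQT (cb hf φ) hφT]
      constructor
      · rintro ⟨g, hg⟩
        refine ⟨g, fun x => ?_⟩
        have h1 := hg (eqv hf Q x)
        have e1 : (⟨cb hf φ (eqv hf Q x), hφT _⟩ : T) = e (φ x) := Subtype.ext (cb_eqv hf φ x)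
        rw [e1] at h1
        exact h1
      · rintro ⟨g, hg⟩
        refine ⟨g, fun y => ?_⟩
        obtain ⟨x, rfl⟩ := (eqv hf Q).surjective y
        have e1 : (⟨cb hf φ (eqv hf Q x), hφT _⟩ : T) = e (φ x) := Subtype.ext (cb_eqv hf φ x)
        rw [e1]
        exact hg x
    exact (facts hι hXC key).false S hSι helim
  · intro h
    have h0 : ∀ Q : Subgroup Ω, Q = T → X.IsNormal Q := by
      intro Q hQ
      subst hQ
      exact h
    have h1 := hX.isNormal_iff.1 (h0 _ hTf.symm)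
    have h2 := hXC.isNormal_iff.2 h1
    have h3 : ∀ Q : Subgroup (HG K), Q = SH K → (DS K).IsNormal Q → (DS K).IsNormal (SH K) := by
      intro Q hQ hn
      rwa [hQ] at hn
    exact DS_not_normal (h3 _ hSH.symm h2)

end Cfsg.Agent.H771.M5
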