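import Cfsg.Agent.H211.M5.VFn
import Cfsg.Agent.H411.M5.Abel

/-!
# S5230-P6: a map of the fusion system of the Monster on `V` which is not in the pruned system (helper771)
-/

set_option autoImplicit false
set_option linter.unusedSectionVars false
set_option linter.unusedVariables false

namespace Cfsg.Agent.H771.M5X

open Cfsg Cfsg.FusionSystem Cfsg.Agent.H802 Cfsg.Agent.H777.Prune Cfsg.Agent.H411.M5 Cfsg.Agent.H777.M5
  Cfsg.Agent.H211.M5

theorem lin_dec : ∀ u1 u3 i j : ZMod 5, ¬ (u1 = 0 ∧ u3 = 0) → j * u1 - i * u3 = 0 → 2 * i * u1 + j * u3 = 0 →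
    i = 0 ∧ j = 0 := by decide +kernel

theorem five_zero : (5 : ZMod 5) = 0 := by decide

/-- **(H)**: an element of `SN` outside `SV` commutes exactly with the elements of `SL` in `SV`. -/
theorem mem_SL_of_comm {y v : PG} (hy : y ∈ PG.SN) (hyV : y ∉ PG.SV) (hv : v ∈ PG.SV) (h : v * y = y * v) :
    v ∈ PG.SL := by
  obtain ⟨k5, k4, k2⟩ := hy
  obtain ⟨h5, h4, h2, h1, h3⟩ := hv
  have hA := congrArg (fun g => PG.v g 0) h
  have hC := congrArg PG.c h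
  simp only [PG.mul_v, Pi.add_apply, act0, k5, k4, k2, h5, h4, h2, h1, h3] at hA
  simp only [PG.mul_c, om, act0, act1, act2, act3, act4, act5, k5, k4, k2, h5, h4, h2, h1, h3] at hC
  have hu : ¬ (y.v 1 - (2 * y.j - 2 * y.j ^ 2 - y.i ^ 2) = 0 ∧ y.v 3 - (-y.i + 2 * (y.i * y.j)) = 0) := by
    rintro ⟨e1, e3⟩
    exact hyV ⟨k5, k4, k2, sub_eq_zero.1 e1, sub_eq_zero.1 e3⟩
  have e1 : v.j * (y.v 1 - (2 * y.j - 2 * y.j ^ 2 - y.i ^ 2)) - v.i * (y.v 3 - (-y.i + 2 * (y.i * y.j))) = 0 := by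
    linear_combination hA
  have e2 : 2 * v.i * (y.v 1 - (2 * y.j - 2 * y.j ^ 2 - y.i ^ 2)) + v.j * (y.v 3 - (-y.i + 2 * (y.i * y.j))) = 0 := by
    linear_combination hC - ((2 * v.i * (y.v 1 - (2 * y.j - 2 * y.j ^ 2 - y.i ^ 2)) +
      v.j * (y.v 3 - (-y.i + 2 * (y.i * y.j)))) + 6 * (v.i * y.j - v.i * y.j ^ 2 - y.i * v.j + y.i * v.j ^ 2)) *
      five_zero
  obtain ⟨hi, hj⟩ := lin_dec _ _ _ _ hu e1 e2
  refine ⟨hi, hj, ?_, ?_, ?_, ?_, h5⟩
  · rw [h1, hi, hj]; ring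
  · rw [h2, hj]
  · rw [h3, hi, hj]; ring
  · rw [h4, hi, mul_zero]

theorem comm_SL_SN {p y : PG} (hp : p ∈ PG.SL) (hy : y ∈ PG.SN) : p * y = y * p := by
  obtain ⟨h1, h2, h3, h4, h5, h6, h7⟩ := hp
  obtain ⟨k5, k4, k2⟩ := hy
  apply PG.ext
  · funext k
    rw [PG.mul_v, PG.mul_v, Pi.add_apply, Pi.add_apply]
    fin_cases k
    · show p.v 0 + act p.i p.j y.v 0 = y.v 0 + act y.i y.j p.v 0
      rw [act0, act0, h1, h2, h3, h4, h5, h6, h7]; ring
    · show p.v 1 + act p.i p.j y.v 1 = y.v 1 + act y.i y.j p.v 1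
      rw [act1, act1, h1, h2, h3, h4, h6, h7]; ring
    · show p.v 2 + act p.i p.j y.v 2 = y.v 2 + act y.i y.j p.v 2
      rw [act2, act2, h1, h4, h7]; ring
    · show p.v 3 + act p.i p.j y.v 3 = y.v 3 + act y.i y.j p.v 3
      rw [act3, act3, h1, h2, h4, h5, h6, h7]; ring
    · show p.v 4 + act p.i p.j y.v 4 = y.v 4 + act y.i y.j p.v 4
      rw [act4, act4, h2, h6, h7]; ring
    · show p.v 5 + act p.i p.j y.v 5 = y.v 5 + act y.i y.j p.v 5
      rw [act5, act5, h7, k5]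
  · rw [PG.mul_c, PG.mul_c, om, om, act0, act1, act2, act3, act4, act5, act0, act1, act2, act3, act4, act5,
      h1, h2, h3, h4, h5, h6, h7, k5]
    ring
  · rw [PG.mul_i, PG.mul_i, add_comm]
  · rw [PG.mul_j, PG.mul_j, add_comm]

theorem card_SV_ge : 5 ^ 4 ≤ Nat.card PG.SV := by
  have h1 : Nat.card (ZMod 5 × ZMod 5 × ZMod 5 × ZMod 5) = 5 ^ 4 := by
    rw [Nat.card_prod, Nat.card_prod, Nat.card_prod, Nat.card_zmod]; norm_num
  rw [← h1]
  have hf : Finite PG.SV := inferInstance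
  refine Nat.card_le_card_of_injective (fun q : ZMod 5 × ZMod 5 × ZMod 5 × ZMod 5 =>
    (⟨⟨![q.1, 2 * q.2.2.2 - 2 * q.2.2.2 ^ 2 - q.2.2.1 ^ 2, q.2.2.2, -q.2.2.1 + 2 * (q.2.2.1 * q.2.2.2),
      2 * q.2.2.1, 0], q.2.1, q.2.2.1, q.2.2.2⟩, rfl, rfl, rfl, rfl, rfl⟩ : PG.SV)) ?_
  rintro ⟨a, b, c, d⟩ ⟨a', b', c', d'⟩ h
  have h2 := congrArg Subtype.val h
  have e1 := congrArg (fun g => PG.v g 0) h2
  have e2 := congrArg PG.c h2
  have e3 := congrArg PG.i h2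
  have e4 := congrArg PG.j h2
  simp only at e2 e3 e4
  have e1' : a = a' := e1
  rw [e1', e2, e3, e4]

variable {G : Type} [Group G] [Finite G] (M : MX G)

theorem f_mem_map {H : Subgroup PG} {p : PG} : M.f p ∈ H.map M.f ↔ p ∈ H := by
  refine ⟨?_, fun h => ⟨p, h, rfl⟩⟩
  rintro ⟨z, hz, hzy⟩
  rwa [← M.f_injective hzy]

theorem mem_L_iff {v y : G} (hv : v ∈ M.V) (hy : y ∈ M.N) (hyV : y ∉ M.V) : v ∈ M.L ↔ v * y = y * v := by
  obtain ⟨p, hp, rfl⟩ := hv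
  obtain ⟨q, hq, rfl⟩ := hy
  have hqV : q ∉ PG.SV := fun h => hyV ⟨q, h, rfl⟩
  constructor
  · intro h
    rw [← map_mul, ← map_mul, comm_SL_SN ((f_mem_map M).1 h) hq]
  · intro h
    rw [← map_mul, ← map_mul] at h
    exact ⟨p, mem_SL_of_comm hq hqV hp (M.f_injective h), rfl⟩

theorem V_le_N : M.V ≤ M.N := by
  rintro _ ⟨p, hp, rfl⟩
  exact ⟨p, SV_le_SN hp, rfl⟩

/-- automorphisms of `V` fixing `L` -/
def Dst : Subgroup (MulAut M.V) where
  carrier := {α | ∀ x : M.V, (x : G) ∈ M.L ↔ (α x : G) ∈ M.L}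
  one_mem' := fun x => Iff.rfl
  mul_mem' := fun {α β} hα hβ x => (hβ x).trans (hα _)
  inv_mem' := fun {α} hα x => by
    have := hα (α⁻¹ x)
    rw [MulAut.apply_inv_self] at this
    exact this.symm

theorem le_Dst : ∀ α ∈ M.F.autGroup M.V, Extends M.F M.V α → α ∈ Dst M := by
  rintro α hα ⟨R, hVR, hcard, ψ, ⟨hRS, hψS, h, hh⟩, hψα⟩
  -- an element of `R` normalizing `V`
  have hRp : IsPGroup 5 R := M.S_isPGroup.to_le hRS
  have hfR : Finite R := inferInstance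
  have hne : M.V ≠ R := by
    intro he
    rw [← he] at hcard
    exact lt_irrefl _ hcard
  have hlt := card_lt_card_normalizerIn hRp hVR hne
  have hex : ∃ y ∈ normalizerIn R M.V, y ∉ M.V := by
    by_contra hcon
    push Not at hcon
    have := Nat.card_mono (Set.toFinite _) (hcon : normalizerIn R M.V ≤ M.V)
    exact absurd hlt (not_lt.2 this)
  obtain ⟨y, ⟨hyR, hyn⟩, hyV⟩ := hex
  have hyn' := Subgroup.mem_normalizer_iff.1 hyn
  have hyN : y ∈ M.N := by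
    rw [← normalizerIn_V M]
    exact ⟨hRS hyR, hyn⟩
  -- conjugation by `h` preserves `V`
  have hhV : ∀ x : M.V, h * x * h⁻¹ = α x := fun x => by
    rw [← hψα x, hh]
  have hhV' : ∀ x, x ∈ M.V ↔ h * x * h⁻¹ ∈ M.V := by
    intro x
    constructor
    · intro hx
      have h2 : h * x * h⁻¹ = α ⟨x, hx⟩ := hhV ⟨x, hx⟩
      rw [h2]
      exact (α ⟨x, hx⟩).2
    · intro hx
      obtain ⟨z, hz⟩ := α.surjective ⟨_, hx⟩
      have h2 := hhV z
      rw [hz] at h2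
      have h3 : (z : G) = x := mul_left_cancel (mul_right_cancel h2)
      rw [← h3]
      exact z.2
  set y' := h * y * h⁻¹ with hy'
  have hy'S : y' ∈ M.S := by
    have := hψS ⟨y, hyR⟩
    rw [hh] at this
    exact this
  have hy'V : y' ∉ M.V := fun hc => hyV ((hhV' y).2 hc)
  have hy'N : y' ∈ M.N := by
    rw [← normalizerIn_V M]
    refine ⟨hy'S, Subgroup.mem_normalizer_iff.2 fun x => ?_⟩
    have e1 : h * (h⁻¹ * x * h) * h⁻¹ = x := by group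
    rw [← e1, ← hhV', hyn', hhV']
    have e2 : h * (y * (h⁻¹ * x * h) * y⁻¹) * h⁻¹ = y' * (h * (h⁻¹ * x * h) * h⁻¹) * y'⁻¹ := by rw [hy']; group
    rw [e2]
  intro x
  rw [mem_L_iff M x.2 hyN hyV, mem_L_iff M (α x).2 hy'N hy'V, ← hhV x, hy']
  have e1 : h * (x : G) * h⁻¹ * (h * y * h⁻¹) = h * (x * y) * h⁻¹ := by group
  have e2 : h * y * h⁻¹ * (h * (x : G) * h⁻¹) = h * (y * x) * h⁻¹ := by group
  rw [e1, e2]
  exact ⟨fun hc => by rw [hc], fun hc => mul_left_cancel (mul_right_cancel hc)⟩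

end Cfsg.Agent.H771.M5X
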