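import Cfsg.Agent.H771.M5.NotMem
import Cfsg.Agent.H802.FusKGood

/-!
# S5230-P6: a map of the fusion system of the Monster on `V` which is not in the pruned system (helper771)
-/

set_option autoImplicit false
set_option linter.unusedSectionVars false
set_option linter.unusedVariables false

namespace Cfsg.Agent.H771.M5X

open Cfsg Cfsg.FusionSystem Cfsg.Agent.H802 Cfsg.Agent.H777.Prune Cfsg.Agent.H411.M5 Cfsg.Agent.H777.M5
  Cfsg.Agent.H211.M5

/-- an element of `SV` outside `SL` -/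
def p0 : PG := ⟨![4, 1, 0, 2, 1, 0], 3, 3, 0⟩

/-- a conjugate of it commuting with `t` -/
def q1 : PG := ⟨![0, 0, 0, 0, 1, 0], 1, 3, 0⟩

/-- the conjugating element -/
def w1 : PG := ⟨![0, 0, 2, 1, 3, 0], 0, 0, 0⟩

theorem p0_mem : p0 ∈ PG.SV := by
  refine ⟨rfl, ?_, rfl, ?_, ?_⟩ <;> decide

theorem p0_not_mem : p0 ∉ PG.SL := by
  rintro ⟨h, -⟩
  exact absurd h (by decide)

theorem w1_p0' : w1 * p0 = q1 * w1 := by
  apply PG.ext
  · funext k
    fin_cases k <;> decide +kernel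
  · decide +kernel
  · decide +kernel
  · decide +kernel

theorem w1_p0 : w1 * p0 * w1⁻¹ = q1 := by
  rw [w1_p0', mul_assoc, mul_inv_cancel, mul_one]

theorem q1_five : q1 ^ 5 = 1 := by
  have h : q1 * q1 * q1 * q1 * q1 = 1 := by
    apply PG.ext
    · funext k
      fin_cases k <;> decide +kernel
    · decide +kernel
    · decide +kernel
    · decide +kernel
  calc q1 ^ 5 = q1 * q1 * q1 * q1 * q1 := by simp only [pow_succ, pow_zero, one_mul]
    _ = 1 := h

theorem q1_ne : q1 ≠ 1 := fun h => absurd (congrArg PG.c h) (by decide +kernel)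

theorem tM_e4 : Matrix.mulVec tM ![0, 0, 0, 0, 1, 0] = ![0, 0, 0, 0, 1, 0] := by decide +kernel

variable {G : Type} [Group G] [Finite G] (M : MX G)

theorem q1_t : M.f q1 * M.t = M.t * M.f q1 := by
  have hw : M.t * M.w q1.v * M.t⁻¹ = M.w q1.v := by
    rw [M.t_w]
    congr 1
    exact tM_e4
  have hw' : M.w q1.v * M.t = M.t * M.w q1.v := by
    calc M.w q1.v * M.t = M.t * M.w q1.v * M.t⁻¹ * M.t := by rw [hw]
      _ = M.t * M.w q1.v := by group
  have hj : q1.j.val = 0 := rfl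
  have h1 : Commute M.t (M.w q1.v) := hw'.symm
  have h2 : Commute M.t M.x := M.tx
  have h3 : Commute M.t M.a := M.ta
  have h4 : Commute M.t (M.f q1) := by
    rw [MX.f_apply, hj, pow_zero, mul_one]
    exact (h1.mul_right (h2.pow_right _)).mul_right (h3.pow_right _)
  exact h4.symm

theorem orderOf_q1 : orderOf (M.f q1) = 5 := by
  rw [orderOf_injective _ M.f_injective]
  exact orderOf_eq_prime q1_five q1_ne

theorem card_centralizer_p0 : 5 ^ 7 ∣ Nat.card ↥(Subgroup.centralizer ({M.f p0} : Set G)) := by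
  have h1 := M.big _ (orderOf_q1 M) (q1_t M)
  have h2 : (Subgroup.centralizer ({M.f q1} : Set G)).map (MulAut.conj (M.f w1)⁻¹).toMonoidHom ≤
      Subgroup.centralizer ({M.f p0} : Set G) := by
    rintro _ ⟨c, hc, rfl⟩
    rw [Subgroup.mem_centralizer_singleton_iff]
    have hc' : c * M.f q1 = M.f q1 * c := Subgroup.mem_centralizer_singleton_iff.1 hc
    rw [← w1_p0, map_mul, map_mul, map_inv] at hc'
    show (M.f w1)⁻¹ * c * (M.f w1)⁻¹⁻¹ * M.f p0 = M.f p0 * ((M.f w1)⁻¹ * c * (M.f w1)⁻¹⁻¹)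
    calc (M.f w1)⁻¹ * c * (M.f w1)⁻¹⁻¹ * M.f p0
        = (M.f w1)⁻¹ * (c * (M.f w1 * M.f p0 * (M.f w1)⁻¹)) * M.f w1 := by group
      _ = (M.f w1)⁻¹ * (M.f w1 * M.f p0 * (M.f w1)⁻¹ * c) * M.f w1 := by rw [hc']
      _ = M.f p0 * ((M.f w1)⁻¹ * c * (M.f w1)⁻¹⁻¹) := by group
  refine h1.trans ?_
  rw [← card_map_conj (M.f w1)⁻¹ (Subgroup.centralizer ({M.f q1} : Set G))]
  exact Subgroup.card_dvd_of_le h2

theorem card_V_ge : 5 ^ 4 ≤ Nat.card M.V := by
  refine card_SV_ge.trans ?_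
  exact (Nat.card_congr (Subgroup.equivMapOfInjective PG.SV M.f M.f_injective).toEquiv).le

theorem V_isPGroup : IsPGroup 5 M.V := M.S_isPGroup.to_le M.V_le

include M in
/-- abelian 5-subgroups have order at most `5 ^ 4` -/
theorem card_le_of_comm (A : Subgroup G) (hA : IsPGroup 5 A) (hc : ∀ a ∈ A, ∀ b ∈ A, a * b = b * a) :
    Nat.card A ≤ 5 ^ 4 := by
  obtain ⟨Q, hQ⟩ := hA.exists_le_sylow
  obtain ⟨g, hg⟩ := MulAction.exists_smul_eq G Q M.T
  have h1 : ∀ a ∈ A, ∃ p : PG, M.f p = g * a * g⁻¹ := by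
    intro a ha
    have h2 : g * a * g⁻¹ ∈ (M.T : Subgroup G) := by
      rw [← hg, Sylow.coe_subgroup_smul]
      exact ⟨a, hQ ha, rfl⟩
    exact h2
  let B : Subgroup PG := (A.map (MulAut.conj g).toMonoidHom).comap M.f
  have hmB : ∀ p, p ∈ B ↔ ∃ a ∈ A, g * a * g⁻¹ = M.f p := fun p => Iff.rfl
  have hB : Nat.card B ≤ 5 ^ 4 := by
    refine card_le_of_comm_PG B ?_
    intro p hp q hq
    obtain ⟨a, ha, hap⟩ := (hmB p).1 hp
    obtain ⟨b, hb, hbq⟩ := (hmB q).1 hq
    apply M.f_injective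
    rw [map_mul, map_mul, ← hap, ← hbq]
    calc g * a * g⁻¹ * (g * b * g⁻¹) = g * (a * b) * g⁻¹ := by group
      _ = g * (b * a) * g⁻¹ := by rw [hc a ha b hb]
      _ = g * b * g⁻¹ * (g * a * g⁻¹) := by group
  refine le_trans ?_ hB
  choose θ hθ using h1
  refine Nat.card_le_card_of_injective (fun a : A => (⟨θ a a.2, (hmB _).2 ⟨a, a.2, (hθ a a.2).symm⟩⟩ : B)) ?_
  intro a b hab
  have h2 : θ a a.2 = θ b b.2 := congrArg Subtype.val hab
  have h3 : g * (a : G) * g⁻¹ = g * (b : G) * g⁻¹ := by rw [← hθ a a.2, ← hθ b b.2, h2]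
  exact Subtype.ext (mul_left_cancel (mul_right_cancel h3))

/-- an element normalizing `V`, commuting with `y₀`, which does not centralize `V` -/
theorem exists_y : ∃ y : G, y ∈ Subgroup.normalizer (M.V : Set G) ∧ y * M.f p0 = M.f p0 * y ∧
    (∃ k : ℕ, y ^ 5 ^ k = 1) ∧ ∃ x ∈ M.V, y * x ≠ x * y := by
  set C := Subgroup.centralizer ({M.f p0} : Set G) with hC
  have hVC : M.V ≤ C := by
    intro v hv
    rw [hC, Subgroup.mem_centralizer_singleton_iff]
    exact M.V_comm v hv _ ⟨p0, p0_mem, rfl⟩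
  have hVp : IsPGroup 5 (M.V.subgroupOf C) := (V_isPGroup M).comap_of_injective C.subtype (Subgroup.subtype_injective C)
  obtain ⟨Y, hY⟩ := hVp.exists_le_sylow
  set R : Subgroup G := (Y : Subgroup C).map C.subtype with hR
  have hRp : IsPGroup 5 R := Y.2.map C.subtype
  have hVR : M.V ≤ R := by
    intro v hv
    exact ⟨⟨v, hVC hv⟩, hY hv, rfl⟩
  have hRC : R ≤ C := by
    rintro _ ⟨c, -, rfl⟩
    exact c.2
  have hcR : 5 ^ 7 ≤ Nat.card R := by
    have h1 : Nat.card R = Nat.card (Y : Subgroup C) :=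
      (Nat.card_congr (Subgroup.equivMapOfInjective _ _ (Subgroup.subtype_injective C)).toEquiv).symm
    have h2 := Y.card_eq_multiplicity
    have h3 : 7 ≤ (Nat.card C).factorization 5 :=
      (Nat.prime_five.pow_dvd_iff_le_factorization Nat.card_pos.ne').1 (card_centralizer_p0 M)
    have h4 : Nat.card (Y : Subgroup C) = 5 ^ (Nat.card C).factorization 5 := h2
    rw [h1, h4]
    exact Nat.pow_le_pow_right (by norm_num) h3
  have hne : M.V ≠ R := by
    intro h
    have h1 := card_le_of_comm M M.V (V_isPGroup M) M.V_comm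
    rw [h] at h1
    have := hcR.trans h1
    norm_num at this
  have hlt := card_lt_card_normalizerIn hRp hVR hne
  have hex : ∃ y ∈ normalizerIn R M.V, y ∉ M.V := by
    by_contra hcon
    push Not at hcon
    have := Nat.card_mono (Set.toFinite _) (hcon : normalizerIn R M.V ≤ M.V)
    exact absurd hlt (not_lt.2 this)
  obtain ⟨y, ⟨hyR, hyn⟩, hyV⟩ := hex
  refine ⟨y, hyn, ?_, ?_, ?_⟩
  · exact Subgroup.mem_centralizer_singleton_iff.1 (hRC hyR)
  · obtain ⟨k, hk⟩ := hRp ⟨y, hyR⟩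
    exact ⟨k, congrArg Subtype.val hk⟩
  · by_contra hcon
    push Not at hcon
    -- `⟨V, y⟩` is abelian
    set A := M.V ⊔ Subgroup.zpowers y with hA
    have hAR : A ≤ R := sup_le hVR (by rw [Subgroup.zpowers_le]; exact hyR)
    have hAc : ∀ a ∈ A, ∀ b ∈ A, a * b = b * a := by
      have h1 : A ≤ Subgroup.centralizer (A : Set G) := by
        have h2 : ∀ v ∈ M.V, v ∈ Subgroup.centralizer (A : Set G) := by
          intro v hv
          rw [Subgroup.mem_centralizer_iff]
          intro a ha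
          have h3 : A ≤ Subgroup.centralizer ({v} : Set G) := by
            refine sup_le ?_ ?_
            · intro u hu
              rw [Subgroup.mem_centralizer_singleton_iff]
              exact M.V_comm u hu v hv
            · rw [Subgroup.zpowers_le, Subgroup.mem_centralizer_singleton_iff]
              exact hcon v hv
          exact Subgroup.mem_centralizer_singleton_iff.1 (h3 ha)
        have h2' : y ∈ Subgroup.centralizer (A : Set G) := by
          rw [Subgroup.mem_centralizer_iff]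
          intro a ha
          have h3 : A ≤ Subgroup.centralizer ({y} : Set G) := by
            refine sup_le ?_ ?_
            · intro u hu
              rw [Subgroup.mem_centralizer_singleton_iff]
              exact (hcon u hu).symm
            · rw [Subgroup.zpowers_le, Subgroup.mem_centralizer_singleton_iff]
          exact Subgroup.mem_centralizer_singleton_iff.1 (h3 ha)
        refine sup_le h2 ?_
        rw [Subgroup.zpowers_le]
        exact h2'
      intro a ha b hb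
      exact (Subgroup.mem_centralizer_iff.1 (h1 ha) b hb).symm
    have h1 := card_le_of_comm M A (hRp.to_le hAR) hAc
    have h2 : M.V = A := Subgroup.eq_of_le_of_card_ge le_sup_left (h1.trans (card_V_ge M))
    apply hyV
    rw [h2]
    exact (le_sup_right : Subgroup.zpowers y ≤ A) (Subgroup.mem_zpowers y)

theorem V_ne_S : M.V ≠ M.S := by
  intro h
  have h1 := card_le_of_comm M M.V (V_isPGroup M) M.V_comm
  rw [h, M.card_S] at h1
  norm_num at h1

/-- **P6**, given that `V` is fully normalized. -/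
theorem exists_not_mem (hfn : M.F.IsFullyNormalized M.V) : ∃ φ ∈ M.F.Hom M.V, φ ∉ M.E.Hom M.V := by
  by_contra hcon
  push Not at hcon
  obtain ⟨y, hyn, hy0, ⟨k, hk⟩, x₁, hx₁, hx₁y⟩ := exists_y M
  have hyn' := Subgroup.mem_normalizer_iff.1 hyn
  let α : MulAut M.V :=
    { toFun := fun x => ⟨y * x * y⁻¹, (hyn' x).1 x.2⟩
      invFun := fun x => ⟨y⁻¹ * x * y, by
        rw [SetLike.mem_coe.symm, SetLike.mem_coe, hyn']
        have : y * (y⁻¹ * (x : G) * y) * y⁻¹ = x := by group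
        rw [this]
        exact x.2⟩
      left_inv := fun x => Subtype.ext (by
        show y⁻¹ * (y * (x : G) * y⁻¹) * y = x
        group)
      right_inv := fun x => Subtype.ext (by
        show y * (y⁻¹ * (x : G) * y) * y⁻¹ = x
        group)
      map_mul' := fun x z => Subtype.ext (by
        show y * ((x : G) * z) * y⁻¹ = (y * (x : G) * y⁻¹) * (y * z * y⁻¹)
        group) }
  have hαa : ∀ x : M.V, ((α x : M.V) : G) = y * x * y⁻¹ := fun x => rfl
  have hαF : M.V.subtype.comp α.toMonoidHom ∈ M.F.Hom M.V :=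
    ⟨M.V_le, fun x => M.V_le (α x).2, y, fun x => rfl⟩
  have hαE : α ∈ M.E.autGroup M.V := (mem_autGroup_iff _ M.V_le α).2 (hcon _ hαF)
  have hEsat : M.E.IsSaturated 5 := prune_isSaturated M.S_isPGroup M.F_sat hfn M.V_comm
  have hEfn : M.E.IsFullyNormalized M.V := by
    refine ⟨M.V_le, fun Q hQ => hfn.2 Q ?_⟩
    obtain ⟨φ, hφ, hr⟩ := hQ
    exact ⟨φ, prune_le _ hφ, hr⟩
  have hfS : Finite M.S := inferInstance
  have hsyl := sylIn_of_isFullyAutomized M.S_isPGroup
    (isFullyAutomized_of_isFullyNormalized M.S_isPGroup hEsat hEfn)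
  have hpow : ∀ n : ℕ, ∀ x : M.V, (((α ^ n) x : M.V) : G) = y ^ n * x * (y ^ n)⁻¹ := by
    intro n
    induction n with
    | zero => intro x; simp
    | succ n ih =>
      intro x
      rw [pow_succ', MulAut.mul_apply, hαa, ih, pow_succ']
      group
  have hαp : IsPGroup 5 (Subgroup.zpowers α) := by
    have h1 : α ^ 5 ^ k = 1 := by
      apply MulEquiv.ext
      intro x
      apply Subtype.ext
      rw [hpow, hk]
      simp
    intro z
    obtain ⟨m, hm⟩ := z.2
    refine ⟨k, Subtype.ext ?_⟩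
    have hm' : (z : MulAut M.V) = α ^ m := hm.symm
    show (z : MulAut M.V) ^ 5 ^ k = 1
    rw [hm', ← zpow_natCast, ← zpow_mul, mul_comm, zpow_mul, zpow_natCast, h1, one_zpow]
  have hfA : Finite (M.E.autGroup M.V) := inferInstance
  obtain ⟨β, hβ, hβS⟩ := hsyl.exists_conj (Subgroup.zpowers_le.2 hαE) hαp
  obtain ⟨g, hgS, hg⟩ := (mem_autInducedBy_iff M.S M.V _).1 (hβS α (Subgroup.mem_zpowers α))
  -- `g` normalizes `V`
  have hgn : g ∈ normalizerIn M.S M.V := by
    refine ⟨hgS, Subgroup.mem_normalizer_iff.2 fun x => ⟨fun hx => ?_, fun hx => ?_⟩⟩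
    · have h1 := hg ⟨x, hx⟩
      rw [← h1]
      exact Subtype.prop _
    · obtain ⟨z, hz⟩ := (β * α * β⁻¹).surjective ⟨_, hx⟩
      have h2 := hg z
      rw [hz] at h2
      have h3 : x = (z : G) := mul_left_cancel (mul_right_cancel h2)
      rw [h3]
      exact z.2
  have hgN : g ∈ M.N := by rw [← normalizerIn_V M]; exact hgn
  have hgV : g ∉ M.V := by
    intro hgV
    have h1 : β * α * β⁻¹ = 1 := by
      apply MulEquiv.ext
      intro x
      apply Subtype.ext
      rw [hg]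
      rw [M.V_comm g hgV x x.2]
      simp
    have h2 : α = 1 := by
      have h3 : α = β⁻¹ * (β * α * β⁻¹) * β := by group
      rw [h3, h1]; group
    apply hx₁y
    have h3 := hαa ⟨x₁, hx₁⟩
    rw [h2] at h3
    have h4 : x₁ = y * x₁ * y⁻¹ := h3
    calc y * x₁ = y * x₁ * y⁻¹ * y := by group
      _ = x₁ * y := by rw [← h4]
  -- the fixed point
  have hp0V : M.f p0 ∈ M.V := ⟨p0, p0_mem, rfl⟩
  have hα0 : α ⟨M.f p0, hp0V⟩ = ⟨M.f p0, hp0V⟩ := by
    apply Subtype.ext
    rw [hαa]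
    show y * M.f p0 * y⁻¹ = M.f p0
    rw [hy0]; group
  have hfix : (β * α * β⁻¹) (β ⟨M.f p0, hp0V⟩) = β ⟨M.f p0, hp0V⟩ := by
    rw [MulAut.mul_apply, MulAut.mul_apply, MulAut.inv_apply_self, hα0]
  have hcomm : ((β ⟨M.f p0, hp0V⟩ : M.V) : G) * g = g * (β ⟨M.f p0, hp0V⟩ : M.V) := by
    have h1 := hg (β ⟨M.f p0, hp0V⟩)
    rw [hfix] at h1
    calc ((β ⟨M.f p0, hp0V⟩ : M.V) : G) * g = g * (β ⟨M.f p0, hp0V⟩ : M.V) * g⁻¹ * g := by rw [← h1]
      _ = _ := by group
  have hL : ((β ⟨M.f p0, hp0V⟩ : M.V) : G) ∈ M.L := (mem_L_iff M (Subtype.prop _) hgN hgV).2 hcomm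
  have hβD : β ∈ Dst M := prune_autGroup_le M.S_isPGroup M.F_sat hfn (V_ne_S M) (Dst M) (le_Dst M) hβ
  have h0 : M.f p0 ∈ M.L := (hβD ⟨M.f p0, hp0V⟩).2 hL
  exact p0_not_mem ((f_mem_map M).1 h0)

end Cfsg.Agent.H771.M5X
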