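import Cfsg.Agent.H771.M5.CGrp
import Mathlib.LinearAlgebra.Matrix.SpecialLinearGroup

/-!
# The ambient group `CG ⋊ Kˣ` and the action of `SL₂(K)` on `V` (helper771)
-/

set_option autoImplicit false
set_option linter.unusedSectionVars false

namespace Cfsg.Agent.H771.M5

open SemidirectProduct CG

section cg

variable {K : Type*} [Field K] [F25 K]

/-- the elements of `V` -/
def vv (w : K × K) : CG K := ⟨w.1, 0, w.2, 0⟩

@[simp] theorem vv_al (w : K × K) : (vv w).al = w.1 := rfl
@[simp] theorem vv_ga (w : K × K) : (vv w).ga = 0 := rfl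
@[simp] theorem vv_de (w : K × K) : (vv w).de = w.2 := rfl
@[simp] theorem vv_be (w : K × K) : (vv w).be = 0 := rfl

theorem vv_mul (w w' : K × K) : vv w * vv w' = vv (w + w') := by
  ext <;> simp

theorem vv_one : vv (0 : K × K) = 1 := rfl

theorem vv_injective : Function.Injective (vv : K × K → CG K) := fun w w' h => by
  ext
  · exact congrArg CG.al h
  · exact congrArg CG.de h

theorem th_vv (a : Kˣ) (w : K × K) : th a (vv w) = vv (a * w.1, (a : K) ^ 23 * w.2) := by
  ext <;> simp

/-- conjugation of `V` by an element -/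
theorem conj_vv_ga (s : CG K) (w : K × K) : (s * vv w * s⁻¹).ga = s.be * bar w.1 := by
  simp
  ring

theorem conj_vv_be (s : CG K) (w : K × K) : (s * vv w * s⁻¹).be = 0 := by simp

theorem conj_vv_al (s : CG K) (w : K × K) : (s * vv w * s⁻¹).al = w.1 := by simp

theorem conj_vv_de (s : CG K) (hs : s.be = 0) (w : K × K) :
    (s * vv w * s⁻¹).de = w.2 - w.1 * bar s.ga := by
  simp [hs]
  ring

theorem conj_vv (s : CG K) (hs : s.be = 0) (w : K × K) :
    s * vv w * s⁻¹ = vv (w.1, w.2 - w.1 * bar s.ga) := by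
  ext
  · exact conj_vv_al s w
  · rw [conj_vv_ga, hs, zero_mul]; rfl
  · exact conj_vv_de s hs w
  · exact conj_vv_be s w

/-- `V` -/
def VC (K : Type*) [Field K] [F25 K] : Subgroup (CG K) where
  carrier := {x | x.ga = 0 ∧ x.be = 0}
  one_mem' := ⟨rfl, rfl⟩
  mul_mem' := fun {x y} hx hy => ⟨by simp [hx.1, hx.2, hy.1], by simp [hx.2, hy.2]⟩
  inv_mem' := fun {x} hx => ⟨by simp [hx.1, hx.2], by simp [hx.2]⟩

theorem mem_VC {x : CG K} : x ∈ VC K ↔ x.ga = 0 ∧ x.be = 0 := Iff.rfl

theorem mem_VC_iff {x : CG K} : x ∈ VC K ↔ ∃ w, x = vv w := by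
  constructor
  · rintro ⟨h1, h2⟩
    exact ⟨(x.al, x.de), by ext <;> simp [h1, h2]⟩
  · rintro ⟨w, rfl⟩
    exact ⟨rfl, rfl⟩

theorem vv_mem (w : K × K) : vv w ∈ VC K := ⟨rfl, rfl⟩

/-- `N` -/
def NC (K : Type*) [Field K] [F25 K] : Subgroup (CG K) where
  carrier := {x | x.be = 0}
  one_mem' := rfl
  mul_mem' := fun {x y} hx hy => by
    show (x * y).be = 0
    rw [CG.mul_be, show x.be = 0 from hx, show y.be = 0 from hy, add_zero]
  inv_mem' := fun {x} hx => by
    show (x⁻¹).be = 0
    rw [CG.inv_be, show x.be = 0 from hx, neg_zero]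

theorem mem_NC {x : CG K} : x ∈ NC K ↔ x.be = 0 := Iff.rfl

/-- an element normalizing `V` lies in `N` -/
theorem be_eq_zero_of_conj {s : CG K} {w : K × K} (hw : w.1 ≠ 0) (h : s * vv w * s⁻¹ ∈ VC K) : s.be = 0 := by
  have h1 := h.1
  rw [conj_vv_ga] at h1
  rcases mul_eq_zero.1 h1 with h2 | h2
  · exact h2
  · exact absurd (bar_eq_zero.1 h2) hw

/-- `C(V) = V` -/
theorem mem_VC_of_comm {s : CG K} (h : ∀ w : K × K, s * vv w = vv w * s) : s ∈ VC K := by
  have hc : s * vv ((1 : K), (0 : K)) * s⁻¹ = vv (1, 0) := by rw [h, mul_inv_cancel_right]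
  have h1 : s.be = 0 := be_eq_zero_of_conj (w := ((1 : K), (0 : K))) one_ne_zero (by rw [hc]; exact vv_mem _)
  rw [conj_vv s h1] at hc
  have h2 := congrArg Prod.snd (vv_injective hc)
  simp at h2
  exact ⟨bar_eq_zero.1 h2, h1⟩

end cg

section mv

variable {K : Type*} [Field K]

/-- the action of a matrix on `K × K` -/
def mv (g : Matrix.SpecialLinearGroup (Fin 2) K) (w : K × K) : K × K :=
  (g 0 0 * w.1 + g 0 1 * w.2, g 1 0 * w.1 + g 1 1 * w.2)

theorem mv_mul (g h : Matrix.SpecialLinearGroup (Fin 2) K) (w : K × K) : mv (g * h) w = mv g (mv h w) := by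
  unfold mv
  simp only [Matrix.SpecialLinearGroup.coe_mul, Matrix.mul_apply, Fin.sum_univ_two]
  ext <;> simp <;> ring

theorem mv_one (w : K × K) : mv 1 w = w := by
  unfold mv
  ext <;> simp

theorem mv_add (g : Matrix.SpecialLinearGroup (Fin 2) K) (w w' : K × K) : mv g (w + w') = mv g w + mv g w' := by
  unfold mv
  ext <;> simp <;> ring

theorem mv_ext {g h : Matrix.SpecialLinearGroup (Fin 2) K} (h1 : ∀ w, mv g w = mv h w) : g = h := by
  have e1 := h1 (1, 0)
  have e2 := h1 (0, 1)
  unfold mv at e1 e2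
  simp at e1 e2
  ext i j
  fin_cases i <;> fin_cases j
  · exact e1.1
  · exact e2.1
  · exact e1.2
  · exact e2.2

/-- a matrix from its entries -/
def mk2 (a b c d : K) (h : a * d - b * c = 1) : Matrix.SpecialLinearGroup (Fin 2) K :=
  ⟨!![a, b; c, d], by rw [Matrix.det_fin_two_of]; exact h⟩

theorem mv_mk2 (a b c d : K) (h : a * d - b * c = 1) (w : K × K) :
    mv (mk2 a b c d h) w = (a * w.1 + b * w.2, c * w.1 + d * w.2) := rfl

theorem det_two (g : Matrix.SpecialLinearGroup (Fin 2) K) : g 0 0 * g 1 1 - g 0 1 * g 1 0 = 1 := by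
  have h := g.2
  rwa [Matrix.det_fin_two] at h

end mv

section hg

variable (K : Type*) [Field K] [F25 K]

/-- the ambient group -/
abbrev HG := CG K ⋊[tor K] Kˣ

/-- the Sylow subgroup -/
def SH : Subgroup (HG K) := (inl : CG K →* HG K).range

variable {K}

theorem conj_inl (g : HG K) (x : CG K) : g * inl x * g⁻¹ = inl (g.left * th g.right x * g.left⁻¹) := by
  apply SemidirectProduct.ext
  · simp only [mul_left, inv_left, left_inl, right_inl, mul_right, mul_one]
    rw [← tor_apply]
    simp only [map_inv, MulAut.apply_inv_self]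
  · simp

theorem inl_mem (x : CG K) : (inl x : HG K) ∈ SH K := ⟨x, rfl⟩

theorem mem_SH {g : HG K} : g ∈ SH K ↔ g.right = 1 := by
  constructor
  · rintro ⟨x, rfl⟩
    rfl
  · intro h
    refine ⟨g.left, ?_⟩
    apply SemidirectProduct.ext
    · rfl
    · exact h.symm

theorem SH_normal : (SH K).Normal := by
  refine ⟨?_⟩
  rintro _ ⟨x, rfl⟩ g
  rw [conj_inl]
  exact inl_mem _

theorem card_SH : Nat.card (SH K) = 5 ^ 8 := by
  rw [← CG.card (K := K)]
  exact (Nat.card_congr (MonoidHom.ofInjective (inl_injective (φ := tor K))).toEquiv).symm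

theorem card_units : Nat.card Kˣ = 24 := by
  have := F25.finite K
  rw [Nat.card_units, F25.card (K := K)]

theorem card_HG : Nat.card (HG K) = 5 ^ 8 * 24 := by
  rw [SemidirectProduct.card, CG.card, card_units]

theorem HG_finite (K : Type*) [Field K] [F25 K] : Finite (HG K) :=
  Nat.finite_of_card_ne_zero (by rw [card_HG]; norm_num)

/-- the image of `V` -/
def VH (K : Type*) [Field K] [F25 K] : Subgroup (HG K) := (VC K).map inl

theorem mem_VH {g : HG K} : g ∈ VH K ↔ ∃ w, g = inl (vv w) := by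
  constructor
  · rintro ⟨x, hx, rfl⟩
    obtain ⟨w, rfl⟩ := mem_VC_iff.1 hx
    exact ⟨w, rfl⟩
  · rintro ⟨w, rfl⟩
    exact ⟨vv w, vv_mem w, rfl⟩

theorem inl_mem_VH {x : CG K} : (inl x : HG K) ∈ VH K ↔ x ∈ VC K := by
  constructor
  · rintro ⟨y, hy, h⟩
    rwa [← inl_injective h]
  · exact fun h => ⟨x, h, rfl⟩

theorem VH_le : VH K ≤ SH K := by
  rintro _ ⟨x, -, rfl⟩
  exact inl_mem x

/-- the parametrization of `V` -/
def ev (K : Type*) [Field K] [F25 K] : Multiplicative (K × K) ≃* VH K where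
  toFun w := ⟨inl (vv w.toAdd), mem_VH.2 ⟨_, rfl⟩⟩
  invFun x := Multiplicative.ofAdd ((x : HG K).left.al, (x : HG K).left.de)
  left_inv w := rfl
  right_inv x := by
    obtain ⟨x, hx⟩ := x
    obtain ⟨w, rfl⟩ := mem_VH.1 hx
    rfl
  map_mul' w w' := Subtype.ext (by
    show inl (vv (w.toAdd + w'.toAdd)) = inl (vv w.toAdd) * inl (vv w'.toAdd)
    rw [← map_mul, vv_mul])

/-- the action of `SL₂(K)` -/
def act (K : Type*) [Field K] : Matrix.SpecialLinearGroup (Fin 2) K →* MulAut (Multiplicative (K × K)) where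
  toFun g :=
    { toFun := fun w => Multiplicative.ofAdd (mv g w.toAdd)
      invFun := fun w => Multiplicative.ofAdd (mv g⁻¹ w.toAdd)
      left_inv := fun w => by
        show Multiplicative.ofAdd (mv g⁻¹ (mv g w.toAdd)) = w
        rw [← mv_mul, inv_mul_cancel, mv_one]
        rfl
      right_inv := fun w => by
        show Multiplicative.ofAdd (mv g (mv g⁻¹ w.toAdd)) = w
        rw [← mv_mul, mul_inv_cancel, mv_one]
        rfl
      map_mul' := fun w w' => congrArg Multiplicative.ofAdd (mv_add g w.toAdd w'.toAdd) }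
  map_one' := MulEquiv.ext (fun w => congrArg Multiplicative.ofAdd (mv_one w.toAdd))
  map_mul' g h := MulEquiv.ext (fun w => congrArg Multiplicative.ofAdd (mv_mul g h w.toAdd))

/-- the action of `SL₂(K)` on `V` -/
def rho (K : Type*) [Field K] [F25 K] : Matrix.SpecialLinearGroup (Fin 2) K →* MulAut (VH K) :=
  (MulAut.congr (ev K)).toMonoidHom.comp (act K)

/-- elements of `V` -/
def ew (w : K × K) : VH K := ev K (Multiplicative.ofAdd w)

theorem coe_ew (w : K × K) : ((ew w : VH K) : HG K) = inl (vv w) := rfl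

theorem ew_surj (x : VH K) : ∃ w, x = ew w := by
  obtain ⟨w, hw⟩ := mem_VH.1 x.2
  exact ⟨w, Subtype.ext hw⟩

theorem ew_injective : Function.Injective (ew : K × K → VH K) := fun w w' h =>
  vv_injective (inl_injective (congrArg Subtype.val h))

theorem rho_apply (g : Matrix.SpecialLinearGroup (Fin 2) K) (w : K × K) : rho K g (ew w) = ew (mv g w) := by
  show ev K (act K g ((ev K).symm (ev K (Multiplicative.ofAdd w)))) = _
  rw [(ev K).symm_apply_apply]
  rfl

theorem rho_injective : Function.Injective (rho K) := by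
  intro g h hgh
  apply mv_ext
  intro w
  apply ew_injective
  rw [← rho_apply, ← rho_apply, hgh]

end hg

end Cfsg.Agent.H771.M5
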